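import Cfsg.Prelude.Def_Transfer
import Cfsg.Agent.PGroup.Basic
import Cfsg.Agent.PGroup.Frattini

/-!
2-groups without normal elementary abelian subgroup of order 8, acted on by an odd group of
automorphisms: elementary facts.
-/

set_option autoImplicit false

namespace Cfsg.Agent.OddPre.NoSCN

open scoped commutatorElement

variable {X : Type*} [Group X]

/-- An odd automorphism of an abelian 2-subgroup fixing its involutions fixes it pointwise. -/
theorem fix_of_fix_omega (hX : IsPGroup 2 X) (B : Subgroup X) (hB : IsMulCommutative B)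
    (φ : MulAut X) {m : ℕ} (hm : Odd m) (hφm : φ ^ m = 1) (hBφ : ∀ b ∈ B, φ b ∈ B)
    (hfix : ∀ u ∈ B, u ^ 2 = 1 → φ u = u) : ∀ b ∈ B, φ b = b := by
  have hcomm : ∀ a ∈ B, ∀ b ∈ B, Commute a b := fun a ha b hb =>
    congrArg (fun x : B => (x : X)) (mul_comm' (⟨a, ha⟩ : B) ⟨b, hb⟩)
  suffices key : ∀ k, ∀ b ∈ B, b ^ 2 ^ k = 1 → φ b = b by
    intro b hb
    obtain ⟨k, hk⟩ := hX b
    exact key k b hb hk
  intro k
  induction k with
  | zero => intro b _ hk; rw [pow_zero, pow_one] at hk; rw [hk, map_one]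
  | succ k ih =>
    intro b hb hk
    obtain ⟨c, hcdef⟩ : ∃ c, c = b⁻¹ * φ b := ⟨_, rfl⟩
    have hcB : c ∈ B := by rw [hcdef]; exact mul_mem (inv_mem hb) (hBφ b hb)
    have hφb : φ b = b * c := by rw [hcdef, mul_inv_cancel_left]
    have hsq : φ (b ^ 2) = b ^ 2 := ih _ (pow_mem hb 2) (by rw [← pow_mul, ← pow_succ']; exact hk)
    have hc2 : c ^ 2 = 1 := by
      rw [map_pow, hφb, (hcomm b hb c hcB).mul_pow] at hsq
      exact mul_eq_left.1 hsq
    have hcfix : φ c = c := hfix c hcB hc2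
    have hit : ∀ i : ℕ, (φ ^ i) b = b * c ^ i := by
      intro i
      induction i with
      | zero => simp
      | succ i ihi =>
        rw [pow_succ, MulAut.mul_apply, hφb, map_mul, ihi]
        have : (φ ^ i) c = c := by
          clear ihi
          induction i with
          | zero => rfl
          | succ i ihc => rw [pow_succ, MulAut.mul_apply, hcfix, ihc]
        rw [this, mul_assoc, ← pow_succ]
    have h := hit m
    rw [hφm, MulAut.one_apply] at h
    have hcm : c ^ m = 1 := mul_eq_left.1 h.symm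
    obtain ⟨j, rfl⟩ := hm
    rw [pow_succ, pow_mul, hc2, one_pow, one_mul] at hcm
    rw [hφb, hcm, mul_one]

/-- A subgroup fixed pointwise and normal is central when `[X, A] = X`. -/
theorem le_center_of_fix (A : Subgroup (MulAut X))
    (hXA : Subgroup.closure {g : X | ∃ φ ∈ A, ∃ x : X, g = x⁻¹ * φ x} = ⊤)
    (B : Subgroup X) [hBn : B.Normal] (hfix : ∀ φ ∈ A, ∀ b ∈ B, φ b = b) :
    B ≤ Subgroup.center X := by
  have key : Subgroup.closure {g : X | ∃ φ ∈ A, ∃ x : X, g = x⁻¹ * φ x} ≤
      Subgroup.centralizer (B : Set X) := by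
    rw [Subgroup.closure_le]
    rintro _ ⟨φ, hφ, x, rfl⟩
    refine Subgroup.mem_centralizer_iff.2 fun b hb => ?_
    have h := hfix φ hφ _ (hBn.conj_mem b hb x)
    rw [map_mul, map_mul, map_inv, hfix φ hφ b hb] at h
    calc b * (x⁻¹ * φ x) = x⁻¹ * (x * b * x⁻¹) * φ x := by group
      _ = x⁻¹ * (φ x * b * (φ x)⁻¹) * φ x := by rw [h]
      _ = x⁻¹ * φ x * b := by group
  rw [hXA] at key
  intro b hb
  exact Subgroup.mem_center_iff.2 fun g =>
    (Subgroup.mem_centralizer_iff.1 (key (Subgroup.mem_top g)) b hb).symm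

/-- The elements fixed by `A` modulo a normal subgroup with abelian quotient lie in it. -/
theorem mem_of_fix_mod [Finite X] (hX : IsPGroup 2 X) (A : Subgroup (MulAut X))
    (hA : Odd (Nat.card A))
    (hXA : Subgroup.closure {g : X | ∃ φ ∈ A, ∃ x : X, g = x⁻¹ * φ x} = ⊤)
    (N : Subgroup X) [N.Normal] (hN : commutator X ≤ N) (x : X)
    (hx : ∀ φ ∈ A, x⁻¹ * φ x ∈ N) : x ∈ N := by
  classical
  letI : CommGroup (X ⧸ N) :=
    { (inferInstance : Group (X ⧸ N)) with
      mul_comm := fun a b => by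
        induction a using QuotientGroup.induction_on with
        | _ a =>
          induction b using QuotientGroup.induction_on with
          | _ b =>
            rw [← QuotientGroup.mk_mul, ← QuotientGroup.mk_mul, QuotientGroup.eq]
            apply hN
            have : (a * b)⁻¹ * (b * a) = ⁅b⁻¹, a⁻¹⁆ := by
              simp only [commutatorElement_def]; group
            rw [this]
            exact Subgroup.commutator_mem_commutator (Subgroup.mem_top _) (Subgroup.mem_top _) }
  haveI : Finite A := Finite.of_injective (fun f : A => ((f : MulAut X) : X → X))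
    (DFunLike.coe_injective.comp Subtype.val_injective)
  haveI : Fintype A := Fintype.ofFinite _
  let ν : X →* X ⧸ N :=
    ∏ φ : A, (QuotientGroup.mk' N).comp (φ : MulAut X).toMonoidHom
  have hν : ∀ y, ν y = ∏ φ : A, QuotientGroup.mk' N ((φ : MulAut X) y) := fun y =>
    MonoidHom.finsetProd_apply _ _ _
  have hinv : ∀ φ ∈ A, ∀ y, ν (φ y) = ν y := by
    intro φ hφ y
    rw [hν, hν]
    exact Fintype.prod_equiv (Equiv.mulRight (⟨φ, hφ⟩ : A)) _ _ fun ψ => rfl
  have htriv : (⊤ : Subgroup X) ≤ ν.ker := by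
    rw [← hXA, Subgroup.closure_le]
    rintro _ ⟨φ, hφ, y, rfl⟩
    exact MonoidHom.mem_ker.2 (by rw [map_mul, map_inv, hinv φ hφ, inv_mul_cancel])
  have hconst : ν x = QuotientGroup.mk' N x ^ Nat.card A := by
    rw [hν, Nat.card_eq_fintype_card, ← Finset.card_univ, ← Finset.prod_const]
    exact Finset.prod_congr rfl fun φ _ => (QuotientGroup.eq.2 (hx φ φ.2)).symm
  rw [MonoidHom.mem_ker.1 (htriv (Subgroup.mem_top x))] at hconst
  obtain ⟨k, hk⟩ := (hX.to_quotient N) (QuotientGroup.mk' N x)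
  have hd : orderOf (QuotientGroup.mk' N x) ∣ Nat.gcd (Nat.card A) (2 ^ k) :=
    Nat.dvd_gcd (orderOf_dvd_of_pow_eq_one hconst.symm) (orderOf_dvd_of_pow_eq_one hk)
  rw [((Nat.coprime_two_right.2 hA).pow_right k).gcd_eq_one, Nat.dvd_one, orderOf_eq_one_iff] at hd
  exact (QuotientGroup.eq_one_iff x).1 hd

/-- Odd automorphisms of a four-group: trivial or permuting the involutions cyclically. -/
theorem four_cases (U : Subgroup X) (hU2 : ∀ u ∈ U, u * u = 1)
    (hU4 : Nat.card U = 4) (φ : MulAut X) {m : ℕ} (hm : Odd m) (hφm : φ ^ m = 1)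
    (hUφ : ∀ u ∈ U, φ u ∈ U) :
    (∀ u ∈ U, φ u = u) ∨
      (∀ u ∈ U, u ≠ 1 → φ u ≠ u ∧ φ (φ (φ u)) = u ∧ u * φ u * φ (φ u) = 1 ∧
        ∀ v ∈ U, v = 1 ∨ v = u ∨ v = φ u ∨ v = φ (φ u)) := by
  classical
  haveI : Finite U := Nat.finite_of_card_ne_zero (by omega)
  have all4 : ∀ u ∈ U, ∀ v ∈ U, u ≠ 1 → v ≠ 1 → v ≠ u →
      ∀ w ∈ U, w = 1 ∨ w = u ∨ w = v ∨ w = u * v := by
    intro u hu v hv hu1 hv1 hvu
    haveI : Fintype U := Fintype.ofFinite _
    have huv1 : u * v ≠ 1 := fun h =>
      hvu (mul_left_cancel (h.trans (hU2 u hu).symm))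
    have huvu : u * v ≠ u := fun h => hv1 (mul_eq_left.1 h)
    have huvv : u * v ≠ v := fun h => hu1 (mul_eq_right.1 h)
    have hs : ({1, ⟨u, hu⟩, ⟨v, hv⟩, ⟨u * v, mul_mem hu hv⟩} : Finset U) = Finset.univ := by
      apply Finset.eq_univ_of_card
      rw [← Nat.card_eq_fintype_card, hU4]
      simp [Subtype.ext_iff, hu1.symm, hv1.symm, huv1.symm, hvu.symm, huvu.symm, huvv.symm]
    intro w hw
    have := Finset.mem_univ (⟨w, hw⟩ : U)
    rw [← hs] at this
    simpa [Subtype.ext_iff] using this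
  by_cases hex : ∃ u ∈ U, u ≠ 1 ∧ φ u = u
  · obtain ⟨u, hu, hu1, hfu⟩ := hex
    left
    intro v hv
    by_cases hv1 : v = 1
    · rw [hv1, map_one]
    by_cases hvu : v = u
    · rw [hvu, hfu]
    by_contra hne
    have hfv1 : φ v ≠ 1 := fun h => hv1 (φ.injective (h.trans (map_one φ).symm))
    have hfvu : φ v ≠ u := fun h => hvu (φ.injective (h.trans hfu.symm))
    have hfv : φ v = u * v := by
      rcases all4 u hu v hv hu1 hv1 hvu _ (hUφ v hv) with h | h | h | h
      · exact absurd h hfv1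
      · exact absurd h hfvu
      · exact absurd h hne
      · exact h
    have h2 : (φ ^ 2) v = v := by
      rw [pow_two, MulAut.mul_apply, hfv, map_mul, hfu, hfv, ← mul_assoc, hU2 u hu, one_mul]
    obtain ⟨j, rfl⟩ := hm
    have h2j : ((φ ^ 2) ^ j) v = v := by
      clear hφm
      induction j with
      | zero => rfl
      | succ j ih => rw [pow_succ, MulAut.mul_apply, h2, ih]
    have h3 := congrArg (fun ψ : MulAut X => ψ v) hφm
    simp only [MulAut.one_apply] at h3
    rw [pow_succ', MulAut.mul_apply, pow_mul, h2j] at h3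
    exact hne h3
  · push Not at hex
    right
    intro u hu hu1
    have hne := hex u hu hu1
    have hfu1 : φ u ≠ 1 := fun h => hu1 (φ.injective (h.trans (map_one φ).symm))
    have hfU := hUφ u hu
    have hall := all4 u hu (φ u) hfU hu1 hfu1 hne
    have hffu : φ (φ u) = u * φ u := by
      rcases hall _ (hUφ _ hfU) with h | h | h | h
      · exact absurd (φ.injective (h.trans (map_one φ).symm)) hfu1
      · refine absurd ?_ (hex (u * φ u) (mul_mem hu hfU) ?_)
        · rw [map_mul, h]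
          have h' := hU2 _ (mul_mem hu hfU)
          calc φ u * u = (u * φ u) * (u * φ u) * (φ u * u) := by rw [h', one_mul]
            _ = u * φ u * (u * (φ u * φ u) * u) := by group
            _ = u * φ u := by rw [hU2 _ hfU, mul_one, hU2 u hu, mul_one]
        · intro h'
          exact hne (mul_left_cancel (h'.trans (hU2 u hu).symm))
      · exact absurd (φ.injective h) hne
      · exact h
    refine ⟨hne, ?_, ?_, ?_⟩
    · rw [hffu, map_mul, hffu]
      calc φ u * (u * φ u) = (φ u * u) * φ u := by group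
        _ = (u * φ u) * φ u := by
          have h' := hU2 _ (mul_mem hu hfU)
          congr 1
          calc φ u * u = (u * φ u) * (u * φ u) * (φ u * u) := by rw [h', one_mul]
            _ = u * φ u * (u * (φ u * φ u) * u) := by group
            _ = u * φ u := by rw [hU2 _ hfU, mul_one, hU2 u hu, mul_one]
        _ = u := by rw [mul_assoc, hU2 _ hfU, mul_one]
    · rw [hffu]; exact hU2 _ (mul_mem hu hfU)
    · rw [hffu]; exact hall

/-- No normal elementary abelian subgroup of order at least 8. -/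
def NoEight (X : Type*) [Group X] : Prop :=
  ∀ E : Subgroup X, E.Normal → Cfsg.IsElementaryAbelian 2 E → Nat.card E ≤ 4

theorem noEight_of_no_scn [Finite X] (hX : IsPGroup 2 X)
    (hscn : ¬ ∃ A : Subgroup X, A.Normal ∧ Subgroup.centralizer (A : Set X) = A ∧
      ∃ E : Subgroup X, E ≤ A ∧ Cfsg.IsElementaryAbelian 2 E ∧ Nat.card E = 8) : NoEight X := by
  haveI : Fact (Nat.Prime 2) := ⟨Nat.prime_two⟩
  intro E hE hEa
  by_contra hlt
  haveI := hE
  obtain ⟨k, hk⟩ := (hX.to_subgroup E).exists_card_eq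
  have h3 : 2 ^ 3 ≤ Nat.card E := by
    rw [hk] at hlt ⊢
    refine Nat.pow_le_pow_right (by norm_num) ?_
    by_contra h
    have : 2 ^ k ≤ 2 ^ 2 := Nat.pow_le_pow_right (by norm_num) (by omega)
    omega
  obtain ⟨K, hKn, -, hKE, hK8⟩ := PGroup.exists_normal_card_eq hX (N := ⊥) (bot_le : ⊥ ≤ E) (k := 3)
    (by rw [Subgroup.card_bot]; norm_num) h3
  obtain ⟨B, hBn, -, hEB, hBc⟩ := PGroup.exists_self_centralizing_normal_abelian hX hEa.1
  refine hscn ⟨B, hBn, hBc, K, hKE.trans hEB, ⟨⟨⟨fun a b => ?_⟩⟩, fun a ha => hEa.2 a (hKE ha)⟩, hK8⟩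
  exact Subtype.ext (congrArg (fun x : E => (x : X))
    (hEa.1.is_comm.comm ⟨a, hKE a.2⟩ ⟨b, hKE b.2⟩))

/-- A central four-group absorbs every involution whose conjugates differ from it by its elements. -/
theorem mem_of_conj [Finite X] (hno : NoEight X) (U : Subgroup X)
    (hUc : U ≤ Subgroup.center X) (hU2 : ∀ u ∈ U, u * u = 1) (hU4 : Nat.card U = 4)
    {t : X} (ht : t * t = 1) (hconj : ∀ y, t⁻¹ * (y * t * y⁻¹) ∈ U) : t ∈ U := by
  by_contra htU
  have hcU : ∀ u ∈ U, ∀ g, g * u = u * g := fun u hu => Subgroup.mem_center_iff.1 (hUc hu)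
  have htinv : t⁻¹ = t := inv_eq_of_mul_eq_one_right ht
  let E : Subgroup X :=
    { carrier := {g | g ∈ U ∨ t⁻¹ * g ∈ U}
      one_mem' := Or.inl (one_mem U)
      inv_mem' := by
        rintro g (h | h)
        · exact Or.inl (inv_mem h)
        · refine Or.inr ?_
          have e : t⁻¹ * g⁻¹ = (t⁻¹ * g)⁻¹ := by
            calc t⁻¹ * g⁻¹ = t⁻¹ * ((t⁻¹ * g)⁻¹ * t⁻¹) := by group
              _ = t⁻¹ * (t⁻¹ * (t⁻¹ * g)⁻¹) := by rw [hcU _ (inv_mem h) t⁻¹]
              _ = (t⁻¹ * g)⁻¹ := by rw [← mul_assoc t⁻¹ t⁻¹, htinv, ht, one_mul]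
          rw [e]; exact inv_mem h
      mul_mem' := by
        intro a b ha hb
        rcases ha with ha | ha <;> rcases hb with hb | hb
        · exact Or.inl (mul_mem ha hb)
        · refine Or.inr ?_
          rw [← mul_assoc, hcU a ha t⁻¹, mul_assoc]; exact mul_mem ha hb
        · refine Or.inr ?_
          rw [← mul_assoc]; exact mul_mem ha hb
        · refine Or.inl ?_
          have e : a * b = (t⁻¹ * a) * (t⁻¹ * b) * (t * t) := by
            have h1 := hcU _ ha t
            have h2 : (t⁻¹ * a) * (t⁻¹ * b) * (t * t) = (t⁻¹ * a) * (t⁻¹ * b) := by rw [ht, mul_one]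
            rw [h2]
            calc a * b = (t * (t⁻¹ * a)) * (t * (t⁻¹ * b)) := by group
              _ = (t⁻¹ * a) * t * (t * (t⁻¹ * b)) := by rw [h1]
              _ = (t⁻¹ * a) * (t * t) * (t⁻¹ * b) := by group
              _ = _ := by rw [ht, mul_one]
          rw [e, ht, mul_one]; exact mul_mem ha hb }
  have hEn : E.Normal := ⟨fun g hg y => by
    rcases hg with hg | hg
    · refine Or.inl ?_
      rwa [hcU g hg y, mul_inv_cancel_right]
    · refine Or.inr ?_
      have e : t⁻¹ * (y * g * y⁻¹) = t⁻¹ * (y * t * y⁻¹) * (y * (t⁻¹ * g) * y⁻¹) := by group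
      rw [e, hcU _ hg y, mul_inv_cancel_right]
      exact mul_mem (hconj y) hg⟩
  have hEa : Cfsg.IsElementaryAbelian 2 E := by
    refine ⟨⟨⟨fun a b => Subtype.ext ?_⟩⟩, ?_⟩
    · show (a : X) * b = b * a
      rcases a.2 with ha | ha
      · exact (hcU _ ha _).symm
      · rcases b.2 with hb | hb
        · exact hcU _ hb _
        · have h1 := hcU _ ha
          have h2 := hcU _ hb
          calc (a : X) * b = t * ((t⁻¹ * a) * t) * (t⁻¹ * b) := by group
            _ = t * (t * (t⁻¹ * a)) * (t⁻¹ * b) := by rw [h1 t]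
            _ = t * t * ((t⁻¹ * a) * (t⁻¹ * b)) := by group
            _ = t * t * ((t⁻¹ * b) * (t⁻¹ * a)) := by rw [h2]
            _ = t * (t * (t⁻¹ * b)) * (t⁻¹ * a) := by group
            _ = t * ((t⁻¹ * b) * t) * (t⁻¹ * a) := by rw [h2 t]
            _ = b * a := by group
    · rintro g (hg | hg)
      · rw [pow_two, hU2 g hg]
      · rw [pow_two]
        calc g * g = t * ((t⁻¹ * g) * t) * (t⁻¹ * g) := by group
          _ = t * (t * (t⁻¹ * g)) * (t⁻¹ * g) := by rw [hcU _ hg t]
          _ = t * t * ((t⁻¹ * g) * (t⁻¹ * g)) := by group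
          _ = 1 := by rw [ht, one_mul, hU2 _ hg]
  have hlt : Nat.card U < Nat.card E := by
    haveI : Finite E := inferInstance
    refine lt_of_le_of_ne (Subgroup.card_le_of_le fun u hu => Or.inl hu) fun h => ?_
    have := Subgroup.eq_of_le_of_card_ge (fun u hu => Or.inl hu : U ≤ E) h.ge
    exact htU (this ▸ Or.inr (by rw [inv_mul_cancel]; exact one_mem U))
  have := hno E hEn hEa
  omega

end Cfsg.Agent.OddPre.NoSCN
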