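import Cfsg.Agent.OddPre.NoSCN.Frame

/-!
The action on a self-centralising frame: displacement maps.
-/

set_option autoImplicit false

namespace Cfsg.Agent.OddPre.NoSCN

open scoped commutatorElement

variable {X : Type*} [Group X] {B U : Subgroup X} {τ : MulAut X} {n : ℕ}

/-- A frame that is self-centralising, stable under a group `A` acting on it as powers of `τ`. -/
structure SCFrame (A : Subgroup (MulAut X)) (B U : Subgroup X) (τ : MulAut X) (n : ℕ) : Prop where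
  frame : Frame B U τ n
  mem : τ ∈ A
  stable : ∀ φ ∈ A, ∀ b ∈ B, φ b ∈ B
  powers : ∀ φ ∈ A, ∃ i : ℕ, ∀ b ∈ B, φ b = (τ ^ i) b
  centralizer : Subgroup.centralizer (B : Set X) = B

namespace SCFrame

variable {A : Subgroup (MulAut X)} (h : SCFrame A B U τ n)
include h

theorem mem_of_triv {x : X} (hx : ∀ b ∈ B, ⁅x, b⁆ = 1) : x ∈ B := by
  have : x ∈ Subgroup.centralizer (B : Set X) := Subgroup.mem_centralizer_iff.2 fun b hb =>
    (commutatorElement_eq_one_iff_mul_comm.1 (hx b hb)).symm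
  rwa [h.centralizer] at this

theorem triv {x b : X} (hx : x ∈ B) (hb : b ∈ B) : ⁅x, b⁆ = 1 :=
  commutatorElement_eq_one_iff_mul_comm.2 (h.frame.comm x hx b hb)

/-- Two elements acting alike on `B` agree modulo `B`. -/
theorem eq_mod {x y : X} (he : ∀ b ∈ B, x * b * x⁻¹ = y * b * y⁻¹) : x⁻¹ * y ∈ B := by
  refine h.mem_of_triv fun b hb => ?_
  rw [commutatorElement_eq_one_iff_mul_comm]
  calc x⁻¹ * y * b = x⁻¹ * (y * b * y⁻¹) * y := by group
    _ = x⁻¹ * (x * b * x⁻¹) * y := by rw [he b hb]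
    _ = b * (x⁻¹ * y) := by group

theorem cube_mod (x : X) : x⁻¹ * τ (τ (τ x)) ∈ B := by
  refine h.eq_mod fun b hb => ?_
  have := congrArg (fun g => τ (τ (τ g))) (rfl : x * b * x⁻¹ = x * b * x⁻¹)
  simp only [h.frame.cube _ (h.frame.conj_mem hb x)] at this
  calc x * b * x⁻¹ = τ (τ (τ (x * b * x⁻¹))) := (h.frame.cube _ (h.frame.conj_mem hb x)).symm
    _ = _ := by simp only [map_mul, map_inv, h.frame.cube b hb]

theorem fixed_mod {x : X} (hx : x⁻¹ * τ x ∈ B) : ∀ φ ∈ A, x⁻¹ * φ x ∈ B := by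
  intro φ hφ
  obtain ⟨i, hi⟩ := h.powers φ hφ
  have hstep : ∀ j : ℕ, x⁻¹ * (τ ^ j) x ∈ B := by
    intro j
    induction j with
    | zero => simp
    | succ j ih =>
      have e : x⁻¹ * (τ ^ (j + 1)) x = x⁻¹ * τ x * τ (x⁻¹ * (τ ^ j) x) := by
        rw [pow_succ', MulAut.mul_apply, map_mul, map_inv]; group
      rw [e]; exact mul_mem hx (h.frame.mapsTo _ ih)
  have hsame : ((τ ^ i) x)⁻¹ * φ x ∈ B := by
    refine h.eq_mod fun b hb => ?_
    obtain ⟨b', hb', rfl⟩ : ∃ b' ∈ B, φ b' = b :=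
      ⟨φ⁻¹ b, h.stable _ (inv_mem hφ) b hb, φ.apply_symm_apply b⟩
    calc (τ ^ i) x * φ b' * ((τ ^ i) x)⁻¹ = (τ ^ i) (x * b' * x⁻¹) := by
          rw [map_mul, map_mul, map_inv, hi b' hb']
      _ = φ (x * b' * x⁻¹) := (hi _ (h.frame.conj_mem hb' x)).symm
      _ = _ := by rw [map_mul, map_mul, map_inv]
  have := mul_mem (hstep i) hsame
  rwa [show x⁻¹ * (τ ^ i) x * (((τ ^ i) x)⁻¹ * φ x) = x⁻¹ * φ x by group] at this

/-- `x τ(x) τ²(x)` lies in `B` when it commutes into `B` appropriately. -/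
theorem norm_fixed {x : X} (h1 : ⁅x, τ x * τ (τ x)⁆ ∈ B) :
    (x * τ x * τ (τ x))⁻¹ * τ (x * τ x * τ (τ x)) ∈ B := by
  obtain ⟨m, hm⟩ : ∃ m, m = τ x * τ (τ x) := ⟨_, rfl⟩
  rw [← hm] at h1
  have e : (x * τ x * τ (τ x))⁻¹ * τ (x * τ x * τ (τ x)) =
      ((x * m)⁻¹ * ⁅x, m⁆⁻¹ * ((x * m)⁻¹)⁻¹) * (x⁻¹ * τ (τ (τ x))) := by
    rw [hm, map_mul, map_mul, commutatorElement_def]; group
  rw [e]
  exact mul_mem (h.frame.normal.conj_mem _ (inv_mem h1) _) (h.cube_mod x)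

end SCFrame

end Cfsg.Agent.OddPre.NoSCN
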