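import Cfsg.Agent.OddPre.NoSCN.Basic

/-!
Homocyclic rank two normal subgroups with an automorphism of order three on them.
-/

set_option autoImplicit false

namespace Cfsg.Agent.OddPre.NoSCN

open scoped commutatorElement

variable {X : Type*} [Group X]

/-- `B` is abelian normal with involution group `U` of order 4, exponent `2 ^ n ≥ 4`, and `τ` acts on
it as an element of order 3 without fixed involution. -/
structure Frame (B U : Subgroup X) (τ : MulAut X) (n : ℕ) : Prop where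
  normal : B.Normal
  comm : ∀ a ∈ B, ∀ b ∈ B, a * b = b * a
  mapsTo : ∀ b ∈ B, τ b ∈ B
  le : U ≤ B
  mem_omega : ∀ b ∈ B, b * b = 1 → b ∈ U
  sq_omega : ∀ u ∈ U, u * u = 1
  central : U ≤ Subgroup.center X
  card_omega : Nat.card U = 4
  four : ∀ u ∈ U, u ≠ 1 → τ u ≠ u ∧ τ (τ (τ u)) = u ∧ u * τ u * τ (τ u) = 1 ∧
    ∀ v ∈ U, v = 1 ∨ v = u ∨ v = τ u ∨ v = τ (τ u)
  cube : ∀ b ∈ B, τ (τ (τ b)) = b
  two_le : 2 ≤ n
  exp_eq_one : ∀ b ∈ B, b ^ 2 ^ n = 1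
  exp_ne_one : ∃ b ∈ B, b ^ 2 ^ (n - 1) ≠ 1

namespace Frame

variable {B U : Subgroup X} {τ : MulAut X} {n : ℕ} (hF : Frame B U τ n)
include hF

theorem tau_omega {u : X} (hu : u ∈ U) : τ u ∈ U :=
  hF.mem_omega _ (hF.mapsTo u (hF.le hu)) (by rw [← map_mul, hF.sq_omega u hu, map_one])

theorem commute {a b : X} (ha : a ∈ B) (hb : b ∈ B) : Commute a b := hF.comm a ha b hb

theorem omega_comm {u : X} (hu : u ∈ U) (g : X) : g * u = u * g :=
  Subgroup.mem_center_iff.1 (hF.central hu) g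

theorem p_mem {b : X} (hb : b ∈ B) : b ^ 2 ^ (n - 1) ∈ U := by
  refine hF.mem_omega _ (pow_mem hb _) ?_
  have := hF.two_le
  rw [← pow_two, ← pow_mul, ← pow_succ, show n - 1 + 1 = n by omega]
  exact hF.exp_eq_one b hb

theorem p_mul {a b : X} (ha : a ∈ B) (hb : b ∈ B) :
    (a * b) ^ 2 ^ (n - 1) = a ^ 2 ^ (n - 1) * b ^ 2 ^ (n - 1) := (hF.commute ha hb).mul_pow _

theorem p_sq {c : X} (hc : c ∈ B) : (c * c) ^ 2 ^ (n - 1) = 1 := by
  rw [hF.p_mul hc hc]; exact hF.sq_omega _ (hF.p_mem hc)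

theorem p_surj : ∀ u ∈ U, ∃ b ∈ B, b ^ 2 ^ (n - 1) = u := by
  obtain ⟨b, hb, hne⟩ := hF.exp_ne_one
  have hu := hF.p_mem hb
  obtain ⟨-, -, -, hall⟩ := hF.four _ hu hne
  intro v hv
  rcases hall v hv with h | h | h | h
  · exact ⟨1, one_mem _, by rw [one_pow, h]⟩
  · exact ⟨b, hb, h.symm⟩
  · exact ⟨τ b, hF.mapsTo b hb, by rw [← map_pow, h]⟩
  · exact ⟨τ (τ b), hF.mapsTo _ (hF.mapsTo b hb), by rw [← map_pow, ← map_pow, h]⟩

theorem sq_of_p_eq_one {b : X} (hb : b ∈ B) (h : b ^ 2 ^ (n - 1) = 1) : ∃ c ∈ B, b = c * c := by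
  have hn := hF.two_le
  suffices key : ∀ j, j ≤ n - 1 → ∀ b ∈ B, b ^ 2 ^ j = 1 → ∃ c ∈ B, b = c * c from
    key _ le_rfl b hb h
  intro j
  induction j with
  | zero =>
    intro _ b _ hb1
    exact ⟨1, one_mem _, by rw [mul_one]; simpa using hb1⟩
  | succ j ih =>
    intro hj b hb hb1
    have hvU : b ^ 2 ^ j ∈ U := hF.mem_omega _ (pow_mem hb _) (by
      rw [← pow_two, ← pow_mul, ← pow_succ]; exact hb1)
    obtain ⟨e, he, hev⟩ := hF.p_surj _ hvU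
    obtain ⟨d, hd⟩ : ∃ d, d = e ^ 2 ^ (n - 1 - j) := ⟨_, rfl⟩
    have hdB : d ∈ B := hd ▸ pow_mem he _
    have hdj : d ^ 2 ^ j = b ^ 2 ^ j := by
      rw [hd, ← pow_mul, ← pow_add, show n - 1 - j + j = n - 1 by omega, hev]
    obtain ⟨c, hc, hcb⟩ := ih (by omega) (b * d⁻¹) (mul_mem hb (inv_mem hdB)) (by
      rw [(hF.commute hb (inv_mem hdB)).mul_pow, inv_pow, hdj, mul_inv_cancel])
    obtain ⟨f, hf, hdf⟩ : ∃ f ∈ B, d = f * f :=
      ⟨e ^ 2 ^ (n - 1 - j - 1), pow_mem he _, by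
        rw [hd, ← pow_add, ← two_mul, ← pow_succ', show n - 1 - j - 1 + 1 = n - 1 - j by omega]⟩
    refine ⟨c * f, mul_mem hc hf, ?_⟩
    have : b = c * c * d := by rw [← hcb, inv_mul_cancel_right]
    rw [this, hdf, mul_assoc c f, ← mul_assoc f c, (hF.commute hf hc).eq]
    group

theorem sq_of_omega {u : X} (hu : u ∈ U) : ∃ c ∈ B, u = c * c := by
  refine hF.sq_of_p_eq_one (hF.le hu) ?_
  have hn := hF.two_le
  rw [show n - 1 = (n - 2) + 1 by omega, pow_succ', pow_mul, pow_two, hF.sq_omega u hu, one_pow]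

theorem eq_one_of_fixed {u : X} (hu : u ∈ U) (h : τ u = u) : u = 1 := by
  by_contra hne
  exact (hF.four u hu hne).1 h

/-- A subgroup of `U` invariant under `τ` is trivial or everything. -/
theorem mem_of_invariant {S : Subgroup X} (hS : ∀ s ∈ S, τ s ∈ S) {u : X} (hu : u ∈ U)
    (hu1 : u ≠ 1) (huS : u ∈ S) : U ≤ S := by
  intro v hv
  rcases (hF.four u hu hu1).2.2.2 v hv with h | h | h | h
  · exact h ▸ one_mem S
  · exact h ▸ huS
  · exact h ▸ hS u huS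
  · exact h ▸ hS _ (hS u huS)

/-- A self-map of `U` whose three conjugates under `τ` multiply to one is trivial or injective. -/
theorem trivial_or_injective (ψ : X → X) (hψU : ∀ u ∈ U, ψ u ∈ U)
    (hψm : ∀ u ∈ U, ∀ v ∈ U, ψ (u * v) = ψ u * ψ v)
    (hsum : ∀ u ∈ U, ψ u * τ (ψ (τ (τ u))) * τ (τ (ψ (τ u))) = 1) :
    (∀ u ∈ U, ψ u = 1) ∨ (∀ u ∈ U, ψ u = 1 → u = 1) := by
  by_contra hcon
  push Not at hcon
  obtain ⟨⟨u0, hu0, hne⟩, ⟨k, hk, hk1, hk0⟩⟩ := hcon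
  obtain ⟨-, -, hprod, hall⟩ := hF.four k hk hk0
  have hτ : τ k ∈ U := hF.tau_omega hk
  have hττ : τ (τ k) ∈ U := hF.tau_omega hτ
  have h1 : ψ 1 = 1 := by
    have := hψm 1 (one_mem _) 1 (one_mem _)
    rw [one_mul] at this
    exact mul_eq_left.1 this.symm
  have hττk : ψ (τ (τ k)) = ψ (τ k) := by
    have h := congrArg ψ hprod
    rw [hψm _ (mul_mem hk hτ) _ hττ, hψm _ hk _ hτ, hk1, one_mul, h1] at h
    exact (eq_inv_of_mul_eq_one_right h).trans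
      (inv_eq_of_mul_eq_one_right (hF.sq_omega _ (hψU _ hτ)))
  have hv : ψ (τ k) ≠ 1 := by
    intro h
    apply hne
    rcases hall u0 hu0 with e | e | e | e
    · rw [e, h1]
    · rw [e, hk1]
    · rw [e, h]
    · rw [e, hττk, h]
  obtain ⟨-, -, hvp, -⟩ := hF.four _ (hψU _ hτ) hv
  have := hsum k hk
  rw [hk1, one_mul, hττk] at this
  rw [mul_assoc, this, mul_one] at hvp
  exact hv hvp

theorem conj_mem {b : X} (hb : b ∈ B) (x : X) : x * b * x⁻¹ ∈ B := hF.normal.conj_mem b hb x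

theorem comm_mem {b : X} (hb : b ∈ B) (x : X) : ⁅x, b⁆ ∈ B := by
  rw [commutatorElement_def]; exact mul_mem (hF.conj_mem hb x) (inv_mem hb)

theorem comm_mul {a b : X} (ha : a ∈ B) (hb : b ∈ B) (x : X) :
    ⁅x, a * b⁆ = ⁅x, a⁆ * ⁅x, b⁆ := by
  have h1 : ⁅x, a * b⁆ = ⁅x, a⁆ * (a * ⁅x, b⁆ * a⁻¹) := by
    simp only [commutatorElement_def]; group
  rw [h1, hF.comm a ha _ (hF.comm_mem hb x), mul_inv_cancel_right]

theorem comm_pow {b : X} (hb : b ∈ B) (x : X) (k : ℕ) : ⁅x, b ^ k⁆ = ⁅x, b⁆ ^ k := by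
  induction k with
  | zero => simp
  | succ k ih => rw [pow_succ, pow_succ, hF.comm_mul (pow_mem hb k) hb, ih]

theorem comm_left {b : X} (hb : b ∈ B) (x y : X) :
    ⁅x * y, b⁆ = ⁅x, ⁅y, b⁆⁆ * ⁅y, b⁆ * ⁅x, b⁆ := by
  simp only [commutatorElement_def]; group

theorem comm_omega {u : X} (hu : u ∈ U) (x : X) : ⁅x, u⁆ = 1 :=
  commutatorElement_eq_one_iff_mul_comm.2 (hF.omega_comm hu x)

theorem p_comm {b : X} (hb : b ∈ B) (x : X) : ⁅x, b⁆ ^ 2 ^ (n - 1) = 1 := by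
  rw [← hF.comm_pow hb, hF.comm_omega (hF.p_mem hb)]

theorem comm_sq {b : X} (hb : b ∈ B) (x : X) : ∃ c ∈ B, ⁅x, b⁆ = c * c :=
  hF.sq_of_p_eq_one (hF.comm_mem hb x) (hF.p_comm hb x)

theorem comm_tau (x b : X) : ⁅τ x, τ b⁆ = τ ⁅x, b⁆ := (map_commutatorElement τ x b).symm

end Frame

/-- Frames exist inside every invariant normal abelian subgroup that is moved and not elementary. -/
theorem exists_frame [Finite X] (hX : IsPGroup 2 X) (hno : NoEight X) (A : Subgroup (MulAut X))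
    (hA : Odd (Nat.card A)) (B : Subgroup X) [hBn : B.Normal]
    (hBc : ∀ a ∈ B, ∀ b ∈ B, a * b = b * a) (hBA : ∀ φ ∈ A, ∀ b ∈ B, φ b ∈ B)
    (hmove : ∃ φ ∈ A, ∃ b ∈ B, φ b ≠ b) (hexp : ∃ b ∈ B, b ∉ Subgroup.center X ∨ b * b ≠ 1) :
    ∃ (U : Subgroup X) (τ : MulAut X) (n : ℕ), τ ∈ A ∧ Frame B U τ n ∧
      ∀ φ ∈ A, ∃ i : ℕ, ∀ b ∈ B, φ b = (τ ^ i) b := by
  classical
  haveI : Fact (Nat.Prime 2) := ⟨Nat.prime_two⟩
  have hpow : ∀ φ ∈ A, φ ^ Nat.card A = 1 := fun φ hφ => by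
    have := pow_card_eq_one' (x := (⟨φ, hφ⟩ : A))
    exact congrArg Subtype.val this
  have hBab : IsMulCommutative B := ⟨⟨fun a b => Subtype.ext (hBc _ a.2 _ b.2)⟩⟩
  let U : Subgroup X :=
    { carrier := {b | b ∈ B ∧ b * b = 1}
      one_mem' := ⟨one_mem _, mul_one 1⟩
      inv_mem' := fun {b} hb => ⟨inv_mem hb.1, by rw [← mul_inv_rev, hb.2, inv_one]⟩
      mul_mem' := fun {a b} ha hb => ⟨mul_mem ha.1 hb.1, by
        rw [mul_assoc a b, ← mul_assoc b a, hBc b hb.1 a ha.1, mul_assoc a b, hb.2, mul_one, ha.2]⟩ }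
  have hUn : U.Normal := ⟨fun b hb g => ⟨hBn.conj_mem b hb.1 g, by
    rw [show g * b * g⁻¹ * (g * b * g⁻¹) = g * (b * b) * g⁻¹ by group, hb.2, mul_one, mul_inv_cancel]⟩⟩
  have hUe : Cfsg.IsElementaryAbelian 2 U :=
    ⟨⟨⟨fun a b => Subtype.ext (hBc _ a.2.1 _ b.2.1)⟩⟩, fun a ha => by rw [pow_two]; exact ha.2⟩
  have hU2 : ∀ u ∈ U, u * u = 1 := fun u hu => hu.2
  have hUφ : ∀ φ ∈ A, ∀ u ∈ U, φ u ∈ U := fun φ hφ u hu =>
    ⟨hBA φ hφ u hu.1, by rw [← map_mul, hu.2, map_one]⟩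
  have hfix : ∀ φ ∈ A, (∀ u ∈ U, φ u = u) → ∀ b ∈ B, φ b = b := fun φ hφ h =>
    fix_of_fix_omega hX B hBab φ hA (hpow φ hφ) (hBA φ hφ)
      (fun u hu hu2 => h u ⟨hu, by rwa [pow_two] at hu2⟩)
  obtain ⟨τ, hτA, b0, hb0, hτb0⟩ := hmove
  obtain ⟨u1, hu1, hτu1⟩ : ∃ u ∈ U, τ u ≠ u := by
    by_contra h
    push Not at h
    exact hτb0 (hfix τ hτA h b0 hb0)
  have hU4 : Nat.card U = 4 := by
    have hle := hno U hUn hUe
    obtain ⟨k, hk⟩ := (hX.to_subgroup U).exists_card_eq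
    by_contra hne
    have hk2 : k ≤ 1 := by
      by_contra h
      have : 2 ^ 2 ≤ 2 ^ k := Nat.pow_le_pow_right (by norm_num) (by omega)
      omega
    have hle2 : Nat.card U ≤ 2 := by
      rw [hk]
      calc 2 ^ k ≤ 2 ^ 1 := Nat.pow_le_pow_right (by norm_num) hk2
        _ = 2 := rfl
    have hu1' : u1 ≠ 1 := fun h => hτu1 (by rw [h, map_one])
    haveI : Fintype U := Fintype.ofFinite _
    have h2 : ({1, ⟨u1, hu1⟩, ⟨τ u1, hUφ τ hτA u1 hu1⟩} : Finset U).card = 3 := by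
      have h3 : τ u1 ≠ 1 := fun h => hu1' (τ.injective (h.trans (map_one τ).symm))
      simp [Subtype.ext_iff, hu1'.symm, h3.symm, hτu1.symm]
    have := Finset.card_le_univ ({1, ⟨u1, hu1⟩, ⟨τ u1, hUφ τ hτA u1 hu1⟩} : Finset U)
    rw [h2, ← Nat.card_eq_fintype_card] at this
    omega
  have hfour : ∀ u ∈ U, u ≠ 1 → τ u ≠ u ∧ τ (τ (τ u)) = u ∧ u * τ u * τ (τ u) = 1 ∧
      ∀ v ∈ U, v = 1 ∨ v = u ∨ v = τ u ∨ v = τ (τ u) :=
    (four_cases U hU2 hU4 τ hA (hpow τ hτA) (hUφ τ hτA)).resolve_left fun h => hτu1 (h u1 hu1)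
  have hUc : U ≤ Subgroup.center X := by
    have hne : U ≠ ⊥ := by
      intro h; rw [h, Subgroup.card_bot] at hU4; omega
    haveI := hUn
    obtain ⟨u, hu, hu0⟩ : ∃ u ∈ U ⊓ Subgroup.center X, u ≠ 1 := by
      by_contra h
      push Not at h
      exact PGroup.inf_center_ne_bot hX U hne ((Subgroup.eq_bot_iff_forall _).2 h)
    have hc : ∀ v, v ∈ Subgroup.center X → τ v ∈ Subgroup.center X := fun v hv =>
      Subgroup.mem_center_iff.2 fun g => by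
        rw [← τ.apply_symm_apply g, ← map_mul, ← map_mul, Subgroup.mem_center_iff.1 hv]
    intro v hv
    rcases (hfour u hu.1 hu0).2.2.2 v hv with h | h | h | h
    · exact h ▸ one_mem _
    · exact h ▸ hu.2
    · exact h ▸ hc u hu.2
    · exact h ▸ hc _ (hc u hu.2)
  have hcubeU : ∀ u ∈ U, τ (τ (τ u)) = u := by
    intro u hu
    by_cases h : u = 1
    · simp [h]
    · exact (hfour u hu h).2.1
  have hcube : ∀ b ∈ B, τ (τ (τ b)) = b := by
    intro b hb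
    exact hfix (τ * τ * τ) (mul_mem (mul_mem hτA hτA) hτA) hcubeU b hb
  have hex : ∃ k, ∀ b ∈ B, b ^ 2 ^ k = 1 := by
    obtain ⟨k, hk⟩ := (hX.to_subgroup B).exists_card_eq
    refine ⟨k, fun b hb => ?_⟩
    have := pow_card_eq_one' (x := (⟨b, hb⟩ : B))
    rw [hk] at this
    exact congrArg Subtype.val this
  set n := Nat.find hex with hn
  have hn2 : 2 ≤ n := by
    by_contra hlt
    obtain ⟨b, hb, hb'⟩ := hexp
    have hbb : b * b = 1 := by
      have := Nat.find_spec hex b hb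
      rw [← hn] at this
      interval_cases n
      · simp at this; simp [this]
      · simpa [pow_two] using this
    rcases hb' with h | h
    · exact h (hUc ⟨hb, hbb⟩)
    · exact h hbb
  have hnot : ∃ b ∈ B, b ^ 2 ^ (n - 1) ≠ 1 := by
    have := Nat.find_min hex (show n - 1 < Nat.find hex by omega)
    push Not at this
    exact this
  refine ⟨U, τ, n, hτA,
    { normal := hBn, comm := hBc, mapsTo := hBA τ hτA, le := fun u hu => hu.1,
      mem_omega := fun b hb h => ⟨hb, h⟩, sq_omega := hU2, central := hUc, card_omega := hU4,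
      four := hfour, cube := hcube, two_le := hn2, exp_eq_one := Nat.find_spec hex,
      exp_ne_one := hnot }, ?_⟩
  intro φ hφ
  have hu1' : u1 ≠ 1 := fun h => hτu1 (by rw [h, map_one])
  obtain ⟨i, hi⟩ : ∃ i : ℕ, φ u1 = (τ ^ i) u1 := by
    rcases (hfour u1 hu1 hu1').2.2.2 (φ u1) (hUφ φ hφ u1 hu1) with h | h | h | h
    · exact absurd (φ.injective (h.trans (map_one φ).symm)) hu1'
    · exact ⟨0, by simpa using h⟩
    · exact ⟨1, by simpa using h⟩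
    · exact ⟨2, by rw [pow_two, MulAut.mul_apply]; exact h⟩
  refine ⟨i, fun b hb => ?_⟩
  have hψA : (τ ^ i)⁻¹ * φ ∈ A := mul_mem (inv_mem (pow_mem hτA i)) hφ
  have hψu : ((τ ^ i)⁻¹ * φ) u1 = u1 := by
    rw [MulAut.mul_apply, hi, MulAut.inv_apply_self]
  have hψU : ∀ u ∈ U, ((τ ^ i)⁻¹ * φ) u = u := by
    refine (four_cases U hU2 hU4 _ hA (hpow _ hψA) (hUφ _ hψA)).resolve_right fun h => ?_
    exact (h u1 hu1 hu1').1 hψu
  have := congrArg (fun x => (τ ^ i) x) (hfix _ hψA hψU b hb)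
  simpa [MulAut.mul_apply, MulAut.apply_inv_self] using this

end Cfsg.Agent.OddPre.NoSCN
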