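import Cfsg.Agent.OddPre.NoSCN.Frame

/-!
Abelian extensions of frames; maximal frames are self-centralising.
-/

set_option autoImplicit false

namespace Cfsg.Agent.OddPre.NoSCN

open scoped commutatorElement

variable {X : Type*} [Group X] [Finite X] {B U : Subgroup X} {τ : MulAut X} {n : ℕ}

/-- No element outside `B`, centralising `B` and central modulo `B`, has its square in `B²`. -/
theorem Frame.not_sq (hF : Frame B U τ n) (hno : NoEight X) {x : X} (hxB : x ∉ B)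
    (hxc : ∀ b ∈ B, Commute x b) (hxX : ∀ y : X, ⁅y, x⁆ ∈ B) {c : X} (hc : c ∈ B) (hsq : x * x = c * c) :
    False := by
  obtain ⟨t, ht⟩ : ∃ t, t = x * c⁻¹ := ⟨_, rfl⟩
  have htB : t ∉ B := by rw [ht, Subgroup.mul_mem_cancel_right B (inv_mem hc)]; exact hxB
  have htt : t * t = 1 := by
    rw [ht, ((hxc _ (inv_mem hc)).symm).mul_mul_mul_comm, hsq]; group
  have htc : ∀ b ∈ B, Commute t b := fun b hb => by
    rw [ht]; exact (hxc b hb).mul_left (hF.commute (inv_mem hc) hb)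
  refine htB (hF.le (mem_of_conj hno U hF.central hF.sq_omega hF.card_omega htt fun y => ?_))
  obtain ⟨b, hb⟩ : ∃ b, b = t⁻¹ * (y * t * y⁻¹) := ⟨_, rfl⟩
  have hbB : b ∈ B := by
    have e : b = t⁻¹ * ⁅y, t⁆ * t := by rw [hb, commutatorElement_def]; group
    have hy : ⁅y, t⁆ ∈ B := by
      have : ⁅y, t⁆ = ⁅y, x⁆ * (x * ⁅y, c⁻¹⁆ * x⁻¹) := by
        rw [ht]; simp only [commutatorElement_def]; group
      rw [this, (hxc _ (hF.comm_mem (inv_mem hc) y)).eq, mul_inv_cancel_right]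
      exact mul_mem (hxX y) (hF.comm_mem (inv_mem hc) y)
    rw [e, mul_assoc, ← (htc _ hy).eq, inv_mul_cancel_left]
    exact hy
  rw [← hb]
  refine hF.mem_omega b hbB ?_
  have h1 : (t * b) * (t * b) = 1 := by
    rw [hb, mul_inv_cancel_left, show y * t * y⁻¹ * (y * t * y⁻¹) = y * (t * t) * y⁻¹ by group, htt,
      mul_one, mul_inv_cancel]
  rwa [((htc b hbB).symm).mul_mul_mul_comm, htt, one_mul] at h1

/-- A `τ`-invariant central extension of a frame inside the centraliser of `B` is abelian. -/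
theorem Frame.comm_of_extension (hF : Frame B U τ n) (hno : NoEight X) (M : Subgroup X)
    (hMc : ∀ x ∈ M, ∀ b ∈ B, Commute x b) (hMX : ∀ x ∈ M, ∀ y : X, ⁅y, x⁆ ∈ B)
    (hMsq : ∀ x ∈ M, x * x ∈ B) (hMτ : ∀ x ∈ M, τ x ∈ M) :
    ∀ x ∈ M, ∀ y ∈ M, x * y = y * x := by
  have hU : ∀ x ∈ M, ∀ y ∈ M, ⁅y, x⁆ ∈ U := by
    intro x hx y hy
    refine hF.mem_omega _ (hMX x hx y) ?_
    have h : ⁅y, x * x⁆ = ⁅y, x⁆ * (x * ⁅y, x⁆ * x⁻¹) := by
      simp only [commutatorElement_def]; group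
    rw [commutatorElement_eq_one_iff_mul_comm.2 (hMc y hy _ (hMsq x hx)).eq,
      (hMc x hx _ (hMX x hx y)).eq, mul_inv_cancel_right] at h
    exact h.symm
  let q : X → X := fun x => (x * x) ^ 2 ^ (n - 1)
  have hqU : ∀ x ∈ M, q x ∈ U := fun x hx => hF.p_mem (hMsq x hx)
  have hq1 : ∀ x ∈ M, q x = 1 → x ∈ B := by
    intro x hx h
    by_contra hxB
    obtain ⟨c, hc, hcc⟩ := hF.sq_of_p_eq_one (hMsq x hx) h
    exact hF.not_sq hno hxB (hMc x hx) (hMX x hx) hc hcc
  have hqmul : ∀ x ∈ M, ∀ y ∈ M, q (x * y) = q x * q y := by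
    intro x hx y hy
    have hu := hU x hx y hy
    have e : (x * y) * (x * y) = ⁅y, x⁆ * ((x * x) * (y * y)) := by
      have e0 : (x * y) * (x * y) = x * (⁅y, x⁆ * (x * (y * y))) := by
        simp only [commutatorElement_def]; group
      rw [e0, ← mul_assoc x, hF.omega_comm hu x]; group
    show ((x * y) * (x * y)) ^ _ = _
    obtain ⟨c, hc, hcc⟩ := hF.sq_of_omega hu
    rw [e, hF.p_mul (hF.le hu) (mul_mem (hMsq x hx) (hMsq y hy)),
      hF.p_mul (hMsq x hx) (hMsq y hy), hcc, hF.p_sq hc, one_mul]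
  have hqτ : ∀ x, q (τ x) = τ (q x) := fun x => by simp only [q, map_pow, map_mul]
  intro x hx y hy
  by_contra hne
  have hxB : x ∉ B := fun h => hne (hMc y hy x h).eq.symm
  have hqx : q x ≠ 1 := fun h => hxB (hq1 x hx h)
  obtain ⟨-, -, hprod, hall⟩ := hF.four _ (hqU x hx) hqx
  have h1 : τ x ∈ M := hMτ x hx
  have h2 : τ (τ x) ∈ M := hMτ _ h1
  have hwB : x * τ x * τ (τ x) ∈ B := hq1 _ (mul_mem (mul_mem hx h1) h2) (by
    rw [hqmul _ (mul_mem hx h1) _ h2, hqmul _ hx _ h1, hqτ (τ x), hqτ x]; exact hprod)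
  have hc : ⁅x, τ x⁆ = 1 := by
    have hu := hU _ h1 x hx
    refine hF.eq_one_of_fixed hu ?_
    rw [← hF.comm_tau]
    have e : τ (τ x) = (τ x)⁻¹ * x⁻¹ * (x * τ x * τ (τ x)) := by group
    have hw : (x * τ x * τ (τ x)) * τ x = τ x * (x * τ x * τ (τ x)) := (hMc _ h1 _ hwB).symm
    obtain ⟨w, hwdef⟩ : ∃ w, w = x * τ x * τ (τ x) := ⟨_, rfl⟩
    rw [← hwdef] at e hw
    rw [e]
    calc ⁅τ x, (τ x)⁻¹ * x⁻¹ * w⁆ = x⁻¹ * (w * (τ x)⁻¹ * w⁻¹) * x * τ x := by
            simp only [commutatorElement_def]; group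
      _ = x⁻¹ * (τ x)⁻¹ * x * τ x := by
            rw [(show Commute w (τ x) from hw).inv_right.eq, mul_inv_cancel_right]
      _ = (τ x * x)⁻¹ * ⁅x, τ x⁆ * (τ x * x) := by simp only [commutatorElement_def]; group
      _ = ⁅x, τ x⁆ := by rw [mul_assoc, ← hF.omega_comm hu, inv_mul_cancel_left]
  have hct : Commute x (τ x) := commutatorElement_eq_one_iff_mul_comm.1 hc
  have hctt : Commute x (τ (τ x)) := by
    have e : τ (τ x) = (τ x)⁻¹ * x⁻¹ * (x * τ x * τ (τ x)) := by group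
    rw [e]
    exact ((hct.inv_right.mul_right (Commute.refl x).inv_right)).mul_right (hMc x hx _ hwB)
  have hcase : ∀ x' ∈ M, q y = q x' → Commute x x' → False := by
    intro x' hx' he hcx
    refine hne (Commute.eq ?_)
    have : x'⁻¹ * y ∈ B := hq1 _ (mul_mem (inv_mem hx') hy) (by
      refine mul_left_cancel (a := q x') ?_
      rw [← hqmul _ hx' _ (mul_mem (inv_mem hx') hy), mul_inv_cancel_left, he, mul_one])
    have h := hcx.mul_right (hMc x hx _ this)
    rwa [mul_inv_cancel_left] at h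
  rcases hall _ (hqU y hy) with h | h | h | h
  · exact hne (hMc x hx y (hq1 y hy h)).eq
  · exact hcase x hx h (Commute.refl x)
  · exact hcase _ h1 (h.trans (hqτ x).symm) hct
  · exact hcase _ h2 (h.trans (by rw [hqτ, hqτ])) hctt

/-- A maximal invariant normal abelian subgroup carrying a frame is self-centralising. -/
theorem Frame.centralizer_eq (hF : Frame B U τ n) (hX : IsPGroup 2 X) (hno : NoEight X)
    (A : Subgroup (MulAut X)) (hτ : τ ∈ A) (hBA : ∀ φ ∈ A, ∀ b ∈ B, φ b ∈ B)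
    (hmax : ∀ M : Subgroup X, M.Normal → (∀ φ ∈ A, ∀ b ∈ M, φ b ∈ M) →
      (∀ a ∈ M, ∀ b ∈ M, a * b = b * a) → B ≤ M → M ≤ B) :
    Subgroup.centralizer (B : Set X) = B := by
  classical
  haveI : Fact (Nat.Prime 2) := ⟨Nat.prime_two⟩
  haveI := hF.normal
  refine le_antisymm ?_ fun b hb => Subgroup.mem_centralizer_iff.2 fun a ha => hF.comm a ha b hb
  by_contra hne
  let π := QuotientGroup.mk' B
  let C := (Subgroup.centralizer (B : Set X)).map π
  have hC : C ≠ ⊥ := fun h => hne (by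
    rw [Subgroup.map_eq_bot_iff, QuotientGroup.ker_mk'] at h; exact h)
  haveI : C.Normal := Subgroup.Normal.map inferInstance _ (QuotientGroup.mk'_surjective B)
  -- involutions of the centre of `X/B` inside the centraliser
  let M : Subgroup X :=
    { carrier := {x | x ∈ Subgroup.centralizer (B : Set X) ∧ π x ∈ Subgroup.center (X ⧸ B) ∧
        π x * π x = 1}
      one_mem' := ⟨one_mem _, by simp, by simp⟩
      inv_mem' := fun {x} hx => ⟨inv_mem hx.1, by rw [map_inv]; exact inv_mem hx.2.1, by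
        rw [map_inv, ← mul_inv_rev, hx.2.2, inv_one]⟩
      mul_mem' := fun {x y} hx hy => ⟨mul_mem hx.1 hy.1, by rw [map_mul]; exact mul_mem hx.2.1 hy.2.1,
        by rw [map_mul, (show Commute (π y) (π x) from
            Subgroup.mem_center_iff.1 hx.2.1 _).mul_mul_mul_comm, hx.2.2, hy.2.2, one_mul]⟩ }
  have hMX : ∀ x ∈ M, ∀ y : X, ⁅y, x⁆ ∈ B := fun x hx y => by
    rw [← QuotientGroup.eq_one_iff]
    show π ⁅y, x⁆ = 1
    rw [map_commutatorElement, commutatorElement_eq_one_iff_mul_comm]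
    exact Subgroup.mem_center_iff.1 hx.2.1 _
  have hMsq : ∀ x ∈ M, x * x ∈ B := fun x hx =>
    (QuotientGroup.eq_one_iff _).1 (show π (x * x) = 1 by rw [map_mul]; exact hx.2.2)
  have hMc : ∀ x ∈ M, ∀ b ∈ B, Commute x b := fun x hx b hb =>
    (Subgroup.mem_centralizer_iff.1 hx.1 b hb).symm
  have hBM : B ≤ M := fun b hb => by
    have h1 : π b = 1 := (QuotientGroup.eq_one_iff b).2 hb
    exact ⟨Subgroup.mem_centralizer_iff.2 fun a ha => hF.comm a ha b hb, by rw [h1]; exact one_mem _,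
      by rw [h1, one_mul]⟩
  have hMA : ∀ φ ∈ A, ∀ x ∈ M, φ x ∈ M := by
    intro φ hφ x hx
    have hsymm : ∀ b ∈ B, φ.symm b ∈ B := fun b hb => hBA φ⁻¹ (inv_mem hφ) b hb
    refine ⟨Subgroup.mem_centralizer_iff.2 fun b hb => ?_, ?_, ?_⟩
    · rw [← φ.apply_symm_apply b, ← map_mul, ← map_mul,
        Subgroup.mem_centralizer_iff.1 hx.1 _ (hsymm b hb)]
    · refine Subgroup.mem_center_iff.2 fun g => ?_
      obtain ⟨y, rfl⟩ := QuotientGroup.mk'_surjective B g
      show π y * π (φ x) = π (φ x) * π y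
      rw [← map_mul, ← map_mul]
      show ((y * φ x : X) : X ⧸ B) = ((φ x * y : X) : X ⧸ B)
      rw [QuotientGroup.eq]
      have := hBA φ hφ _ (hMX x hx (φ.symm y))
      rw [map_commutatorElement, φ.apply_symm_apply] at this
      have h2 := hF.normal.conj_mem _ (inv_mem this) ((φ x)⁻¹ * y⁻¹ * 1)
      have h3 : (y * φ x)⁻¹ * (φ x * y) =
          (φ x)⁻¹ * y⁻¹ * 1 * ⁅y, φ x⁆⁻¹ * ((φ x)⁻¹ * y⁻¹ * 1)⁻¹ := by
        simp only [commutatorElement_def]; group
      rwa [h3]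
    · rw [← map_mul, ← map_mul]
      exact (QuotientGroup.eq_one_iff _).2 (hBA φ hφ _ (hMsq x hx))
  have hMn : M.Normal := ⟨fun x hx g => by
    have h := hMX x hx g
    have e : g * x * g⁻¹ = ⁅g, x⁆ * x := by simp [commutatorElement_def]
    rw [e]; exact mul_mem (hBM h) hx⟩
  have hMcomm := hF.comm_of_extension hno M hMc hMX hMsq (hMA τ hτ)
  have hMB := hmax M hMn hMA hMcomm hBM
  -- but `M` is strictly larger than `B`
  have hmeet := PGroup.inf_center_ne_bot (hX.to_quotient B) C hC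
  have h2 : 2 ∣ Nat.card (C ⊓ Subgroup.center (X ⧸ B) : Subgroup (X ⧸ B)) :=
    (((hX.to_quotient B).to_subgroup _).card_eq_or_dvd).resolve_left fun h =>
      hmeet (Subgroup.card_eq_one.1 h)
  obtain ⟨g, hg⟩ := exists_prime_orderOf_dvd_card' 2 h2
  obtain ⟨⟨x, hx, hxg⟩, hgc⟩ := Subgroup.mem_inf.1 g.2
  have hg2 : (g : X ⧸ B) * (g : X ⧸ B) = 1 := by
    have := pow_orderOf_eq_one g
    rw [hg, pow_two] at this
    exact congrArg Subtype.val this
  have hxB : x ∈ B := hMB ⟨hx, hxg ▸ hgc, hxg ▸ hg2⟩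
  have : (g : X ⧸ B) = 1 := hxg.symm.trans ((QuotientGroup.eq_one_iff x).2 hxB)
  have h1 : g = 1 := Subtype.ext this
  rw [h1, orderOf_one] at hg
  omega

end Cfsg.Agent.OddPre.NoSCN
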