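import Cfsg.Agent.OddPre.NoSCN.TwoStep
import Cfsg.Agent.OddPre.NoSCN.SelfCentral

/-!
Structure of a group with a self-centralising frame: special of order 64.
-/

set_option autoImplicit false

namespace Cfsg.Agent.OddPre.NoSCN

open scoped commutatorElement

variable {X : Type*} [Group X] [Finite X] {B U : Subgroup X} {τ : MulAut X} {n : ℕ}
  {A : Subgroup (MulAut X)}

namespace SCFrame

variable (h : SCFrame A B U τ n)
include h

omit [Finite X] in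
theorem low_congr {x a b : X} (hx : ∀ b ∈ B, ⁅x, b⁆ ∈ U) (ha : a ∈ B) (hb : b ∈ B)
    (he : a ^ 2 ^ (n - 1) = b ^ 2 ^ (n - 1)) : ⁅x, a⁆ = ⁅x, b⁆ := by
  obtain ⟨c, hc, hcc⟩ := h.frame.sq_of_p_eq_one (mul_mem (inv_mem ha) hb)
    (by rw [h.frame.p_mul (inv_mem ha) hb, inv_pow, he, inv_mul_cancel])
  have : b = a * (c * c) := by rw [← hcc, mul_inv_cancel_left]
  rw [this, h.frame.comm_mul ha (mul_mem hc hc), h.frame.comm_mul hc hc,
    h.frame.sq_omega _ (hx c hc), mul_one]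

omit [Finite X] in
theorem low_tau {x : X} (hx : ∀ b ∈ B, ⁅x, b⁆ ∈ U) : ∀ b ∈ B, ⁅τ x, b⁆ ∈ U := by
  intro b hb
  have hb2 := h.frame.mapsTo _ (h.frame.mapsTo b hb)
  rw [← h.frame.cube b hb, h.frame.comm_tau]
  exact h.frame.tau_omega (hx _ hb2)

omit [Finite X] in
/-- Displacements are faithful on `B / B²` if the three conjugates multiply into `B`. -/
theorem inj_of_norm {x : X} (hx : ∀ b ∈ B, ⁅x, b⁆ ∈ U) (hxB : x ∉ B)
    (hw : x * τ x * τ (τ x) ∈ B) : ∀ b ∈ B, ⁅x, b⁆ = 1 → b ^ 2 ^ (n - 1) = 1 := by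
  have hF := h.frame
  choose! pre hpre hpre' using hF.p_surj
  have hτ : ∀ (y : X), (∀ b ∈ B, ⁅y, b⁆ ∈ U) → ∀ v ∈ U, τ ⁅y, pre v⁆ = ⁅τ y, pre (τ v)⁆ := by
    intro y hy v hv
    rw [← hF.comm_tau]
    exact h.low_congr (h.low_tau hy) (hF.mapsTo _ (hpre v hv)) (hpre _ (hF.tau_omega hv))
      (by rw [← map_pow, hpre' v hv, hpre' _ (hF.tau_omega hv)])
  have h1 := h.low_tau hx
  have h2 := h.low_tau h1
  have hfac : ∀ b ∈ B, ⁅x, b⁆ = ⁅x, pre (b ^ 2 ^ (n - 1))⁆ := fun b hb =>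
    h.low_congr hx hb (hpre _ (hF.p_mem hb)) (hpre' _ (hF.p_mem hb)).symm
  rcases hF.trivial_or_injective (fun u => ⁅x, pre u⁆) (fun u hu => hx _ (hpre u hu))
    (fun u hu v hv => by
      rw [h.low_congr hx (hpre _ (mul_mem hu hv)) (mul_mem (hpre u hu) (hpre v hv))
        (by rw [hpre' _ (mul_mem hu hv), hF.p_mul (hpre u hu) (hpre v hv), hpre' u hu, hpre' v hv]),
        hF.comm_mul (hpre u hu) (hpre v hv)])
    (fun u hu => by
      have hu1 := hF.tau_omega hu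
      have hu2 := hF.tau_omega hu1
      rw [hτ x hx _ hu2, hτ x hx _ hu1, hτ _ h1 _ hu2, hF.cube u (hF.le hu)]
      have e1 := h.low_mul hx h1
      rw [← (e1 _ (hpre u hu)).2,
        ← (h.low_mul (fun b hb => (e1 b hb).1) h2 _ (hpre u hu)).2, h.triv hw (hpre u hu)]) with h0 | hinj
  · exact absurd (h.mem_of_triv fun b hb => (hfac b hb).trans (h0 _ (hF.p_mem hb))) hxB
  · intro b hb hb1
    exact hinj _ (hF.p_mem hb) (by rw [← hfac b hb]; exact hb1)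

omit [Finite X] in
/-- Displacements are faithful on `B / B²` for elements fixed modulo `B`. -/
theorem inj_of_fixed {x : X} (hx : ∀ b ∈ B, ⁅x, b⁆ ∈ U) (hxB : x ∉ B)
    (hfix : x⁻¹ * τ x ∈ B) : ∀ b ∈ B, ⁅x, b⁆ = 1 → b ^ 2 ^ (n - 1) = 1 := by
  have hF := h.frame
  have hsame : ∀ b ∈ B, ⁅τ x, b⁆ = ⁅x, b⁆ := by
    intro b hb
    have : τ x = x * (x⁻¹ * τ x) := by group
    rw [this, hF.comm_left hb, h.triv hfix hb, commutatorElement_one_right, one_mul, one_mul]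
  let S : Subgroup X :=
    { carrier := {u | u ∈ U ∧ ∀ b ∈ B, b ^ 2 ^ (n - 1) = u → ⁅x, b⁆ = 1}
      one_mem' := ⟨one_mem _, fun b hb hb1 => by
        rw [h.low_congr hx hb (one_mem _) (hb1.trans (one_pow _).symm), commutatorElement_one_right]⟩
      inv_mem' := fun {u} hu => by
        rw [Set.mem_ofPred, inv_eq_of_mul_eq_one_right (hF.sq_omega u hu.1)]
        exact hu
      mul_mem' := fun {u v} hu hv => ⟨mul_mem hu.1 hv.1, fun b hb hb1 => by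
        obtain ⟨c, hc, hcu⟩ := hF.p_surj u hu.1
        obtain ⟨d, hd, hdv⟩ := hF.p_surj v hv.1
        rw [h.low_congr hx hb (mul_mem hc hd) (by rw [hF.p_mul hc hd, hb1, hcu, hdv]),
          hF.comm_mul hc hd, hu.2 c hc hcu, hv.2 d hd hdv, one_mul]⟩ }
  have hS : ∀ u ∈ S, τ u ∈ S := by
    intro u hu
    refine ⟨hF.tau_omega hu.1, fun b hb hb1 => ?_⟩
    obtain ⟨c, hc, hcu⟩ := hF.p_surj u hu.1
    rw [h.low_congr hx hb (hF.mapsTo c hc) (by rw [hb1, ← map_pow, hcu]), ← hsame _ (hF.mapsTo c hc),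
      hF.comm_tau, hu.2 c hc hcu, map_one]
  intro b hb hb1
  by_contra hne
  have hbS : b ^ 2 ^ (n - 1) ∈ S := ⟨hF.p_mem hb, fun c hc hce => by
    rw [h.low_congr hx hc hb hce, hb1]⟩
  refine hxB (h.mem_of_triv fun c hc => ?_)
  exact ((hF.mem_of_invariant hS (hF.p_mem hb) hne hbS) (hF.p_mem hc)).2 c hc rfl

/-- The exponent of `B` is four. -/
theorem two_eq (hX : IsPGroup 2 X) (hno : NoEight X) (hA : Odd (Nat.card A))
    (hXA : Subgroup.closure {g : X | ∃ φ ∈ A, ∃ x : X, g = x⁻¹ * φ x} = ⊤) (hB : B ≠ ⊤) : n = 2 := by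
  classical
  haveI : Fact (Nat.Prime 2) := ⟨Nat.prime_two⟩
  have hF := h.frame
  by_contra hn
  have hn3 : 3 ≤ n := by have := hF.two_le; omega
  haveI := hF.normal
  obtain ⟨x0, hx0, hx0l⟩ := h.exists_low hX hA hXA hB hn3
  let π := QuotientGroup.mk' B
  let P : Subgroup X :=
    { carrier := {x | ∀ b ∈ B, ⁅x, b⁆ ∈ U}
      one_mem' := fun b _ => by rw [commutatorElement_one_left]; exact one_mem U
      inv_mem' := fun {x} hx => h.low_inv hx
      mul_mem' := fun {x y} hx hy b hb => (h.low_mul hx hy b hb).1 }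
  have hPn : P.Normal := ⟨fun x hx g b hb => by
    have e : ⁅g * x * g⁻¹, b⁆ = g * ⁅x, g⁻¹ * b * g⁆ * g⁻¹ := by
      simp only [commutatorElement_def]; group
    have hu := hx _ (by simpa using hF.conj_mem hb g⁻¹ : g⁻¹ * b * g ∈ B)
    rw [e, hF.omega_comm hu g, mul_inv_cancel_right]
    exact hu⟩
  haveI : (P.map π).Normal := Subgroup.Normal.map inferInstance _ (QuotientGroup.mk'_surjective B)
  have hP : P.map π ≠ ⊥ := fun e => hx0 (by
    rw [Subgroup.map_eq_bot_iff, QuotientGroup.ker_mk'] at e; exact e hx0l)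
  obtain ⟨g, hg, hg1⟩ : ∃ g ∈ P.map π ⊓ Subgroup.center (X ⧸ B), g ≠ 1 := by
    by_contra hall
    push Not at hall
    exact PGroup.inf_center_ne_bot (hX.to_quotient B) _ hP ((Subgroup.eq_bot_iff_forall _).2 hall)
  obtain ⟨⟨x, hx, rfl⟩, hxc⟩ := Subgroup.mem_inf.1 hg
  have hxB : x ∉ B := fun e => hg1 ((QuotientGroup.eq_one_iff x).2 e)
  have hcent : ∀ z : X, π z ∈ Subgroup.center (X ⧸ B) → ∀ y : X, ⁅y, z⁆ ∈ B := fun z hz y => by
    rw [← QuotientGroup.eq_one_iff]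
    show π ⁅y, z⁆ = 1
    rw [map_commutatorElement, commutatorElement_eq_one_iff_mul_comm]
    exact Subgroup.mem_center_iff.1 hz _
  have hcτ : ∀ z : X, (∀ y : X, ⁅y, z⁆ ∈ B) → ∀ y : X, ⁅y, τ z⁆ ∈ B := fun z hz y => by
    rw [← τ.apply_symm_apply y, ← map_commutatorElement]; exact hF.mapsTo _ (hz _)
  have hcmul : ∀ z z' : X, (∀ y : X, ⁅y, z⁆ ∈ B) → (∀ y : X, ⁅y, z'⁆ ∈ B) →
      ∀ y : X, ⁅y, z * z'⁆ ∈ B := fun z z' hz hz' y => by
    have e : ⁅y, z * z'⁆ = ⁅y, z⁆ * (z * ⁅y, z'⁆ * z⁻¹) := by simp only [commutatorElement_def]; group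
    rw [e]; exact mul_mem (hz y) (hF.conj_mem (hz' y) z)
  -- a central element with faithful displacement
  obtain ⟨z, hzP, hzB, hzc, hzi⟩ : ∃ z, (∀ b ∈ B, ⁅z, b⁆ ∈ U) ∧ z ∉ B ∧ (∀ y : X, ⁅y, z⁆ ∈ B) ∧
      ∀ b ∈ B, ⁅z, b⁆ = 1 → b ^ 2 ^ (n - 1) = 1 := by
    have hx1 := hcent x hxc
    by_cases hw : x * τ x * τ (τ x) ∈ B
    · exact ⟨x, hx, hxB, hx1, h.inj_of_norm hx hxB hw⟩
    · have h1 := hcτ x hx1
      have hwc := hcmul _ _ (hcmul _ _ hx1 h1) (hcτ _ h1)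
      have hwP : ∀ b ∈ B, ⁅x * τ x * τ (τ x), b⁆ ∈ U :=
        mul_mem (mul_mem (show x ∈ P from hx) (show τ x ∈ P from h.low_tau hx))
          (show τ (τ x) ∈ P from h.low_tau (h.low_tau hx))
      refine ⟨_, hwP, hw, hwc, h.inj_of_fixed hwP hw (h.norm_fixed ?_)⟩
      exact hcmul _ _ h1 (hcτ _ h1) x
  -- its square is a square in `B`
  have hzz : z * z ∈ B := h.low_sq hzP
  obtain ⟨c, hc, hcc⟩ : ∃ c ∈ B, z * z = c * c := hF.sq_of_p_eq_one hzz
    (hzi _ hzz (commutatorElement_eq_one_iff_mul_comm.2 (by group)))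
  -- so some involution lies in the coset
  obtain ⟨e, he, heu⟩ := hF.p_surj _ (hzP _ (inv_mem hc))
  obtain ⟨d, hd⟩ : ∃ d, d = e ^ 2 ^ (n - 2) := ⟨_, rfl⟩
  have hdB : d ∈ B := hd ▸ pow_mem he _
  have hdd : d * d = ⁅z, c⁻¹⁆ := by
    rw [hd, ← pow_two, ← pow_mul, ← pow_succ, show n - 2 + 1 = n - 1 by omega]; exact heu
  have hdz : ⁅z, d⁆ = 1 := by
    rw [hd, hF.comm_pow he, show n - 2 = (n - 3) + 1 by omega, pow_succ', pow_mul, pow_two,
      hF.sq_omega _ (hzP e he), one_pow]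
  obtain ⟨t, ht⟩ : ∃ t, t = z * c⁻¹ * d⁻¹ := ⟨_, rfl⟩
  have htt : t * t = 1 := by
    have h1 : (z * c⁻¹) * (z * c⁻¹) = ⁅z, c⁻¹⁆ := by
      calc (z * c⁻¹) * (z * c⁻¹) = ⁅z, c⁻¹⁆ * (c⁻¹ * (z * z) * c⁻¹) := by
            simp only [commutatorElement_def]; group
        _ = ⁅z, c⁻¹⁆ := by rw [hcc]; group
    have h2 : Commute (z * c⁻¹) d⁻¹ :=
      (Commute.mul_left (commutatorElement_eq_one_iff_mul_comm.1 hdz) (hF.commute (inv_mem hc) hdB)).inv_right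
    rw [ht, h2.symm.mul_mul_mul_comm, h1, ← mul_inv_rev, hdd, mul_inv_cancel]
  have htB : t ∉ B := by
    rw [ht, Subgroup.mul_mem_cancel_right B (inv_mem hdB), Subgroup.mul_mem_cancel_right B (inv_mem hc)]
    exact hzB
  have htP : t ∈ P := by
    have hBP : ∀ b ∈ B, b ∈ P := fun b hb c hc => by rw [h.triv hb hc]; exact one_mem U
    rw [ht]
    exact mul_mem (mul_mem (show z ∈ P from hzP) (hBP _ (inv_mem hc))) (hBP _ (inv_mem hdB))
  have htc : ∀ y : X, ⁅y, t⁆ ∈ B := by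
    rw [ht]
    exact hcmul _ _ (hcmul _ _ hzc fun y => hF.comm_mem (inv_mem hc) y) fun y => hF.comm_mem (inv_mem hdB) y
  have hti : ∀ b ∈ B, ⁅t, b⁆ = ⁅z, b⁆ := fun b hb => by
    rw [ht, mul_assoc, hF.comm_left hb, h.triv (mul_mem (inv_mem hc) (inv_mem hdB)) hb,
      commutatorElement_one_right, one_mul, one_mul]
  refine htB (hF.le (mem_of_conj hno U hF.central hF.sq_omega hF.card_omega htt fun y => ?_))
  obtain ⟨b, hb⟩ : ∃ b, b = t⁻¹ * (y * t * y⁻¹) := ⟨_, rfl⟩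
  have hbB : b ∈ B := by
    have e : b = t⁻¹ * ⁅y, t⁆ * t⁻¹⁻¹ := by rw [hb, commutatorElement_def]; group
    rw [e]; exact hF.conj_mem (htc y) _
  rw [← hb]
  have h1 : (t * b) * (t * b) = 1 := by
    rw [hb, mul_inv_cancel_left, show y * t * y⁻¹ * (y * t * y⁻¹) = y * (t * t) * y⁻¹ by group, htt,
      mul_one, mul_inv_cancel]
  have h2 : ⁅t, b⁆ * (b * b) = 1 := by
    have e : (t * b) * (t * b) = ⁅t, b⁆ * (b * (t * t) * b) := by
      simp only [commutatorElement_def]; group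
    rw [e, htt, mul_one] at h1; exact h1
  have hbb : b * b ∈ U := by
    rw [← inv_eq_of_mul_eq_one_right h2]; exact inv_mem (htP b hbB)
  have hp : b ^ 2 ^ (n - 1) = 1 := by
    rw [show n - 1 = (n - 3) + 2 by omega, pow_add, mul_comm, pow_mul,
      show b ^ 2 ^ 2 = (b * b) * (b * b) by simp [pow_succ, mul_assoc], hF.sq_omega _ hbb, one_pow]
  obtain ⟨f, hf, hbf⟩ := hF.sq_of_p_eq_one hbB hp
  have : ⁅t, b⁆ = 1 := by rw [hbf, hF.comm_mul hf hf]; exact hF.sq_omega _ (htP f hf)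
  rw [this, one_mul] at h2
  exact hF.mem_omega b hbB h2

end SCFrame

end Cfsg.Agent.OddPre.NoSCN
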