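import Cfsg.Agent.OddPre.NoSCN.NonCentral

/-!
A self-centralising frame forces order 64 with the four-group as centre, derived group and all involutions.
-/

set_option autoImplicit false

namespace Cfsg.Agent.OddPre.NoSCN

open scoped commutatorElement

variable {X : Type*} [Group X] [Finite X] {B U : Subgroup X} {τ : MulAut X} {n : ℕ}
  {A : Subgroup (MulAut X)}

namespace SCFrame

variable (h : SCFrame A B U τ n)
include h

theorem structure_sixty_four (hX : IsPGroup 2 X) (hno : NoEight X) (hA : Odd (Nat.card A))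
    (hXA : Subgroup.closure {g : X | ∃ φ ∈ A, ∃ x : X, g = x⁻¹ * φ x} = ⊤) (hB : B ≠ ⊤) :
    Nat.card X = 64 ∧ Subgroup.center X = U ∧ (∀ y z : X, ⁅y, z⁆ ∈ U) ∧ (∀ y : X, y * y ∈ U) ∧
      ∀ t : X, t * t = 1 → t ∈ U := by
  classical
  have hn := h.two_eq hX hno hA hXA hB
  subst hn
  have hF := h.frame
  haveI := hF.normal
  have h4 : ∀ b ∈ B, (b * b) * (b * b) = 1 := fun b hb => by
    have := hF.exp_eq_one b hb
    rwa [show b ^ 2 ^ 2 = (b * b) * (b * b) by simp [pow_succ, mul_assoc]] at this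
  have hsqU : ∀ b ∈ B, b * b ∈ U := fun b hb => hF.mem_omega _ (mul_mem hb hb) (h4 b hb)
  have hp : ∀ b : X, b ^ 2 ^ (2 - 1) = b * b := fun b => by norm_num [pow_two]
  have hlow : ∀ x : X, ∀ b ∈ B, ⁅x, b⁆ ∈ U := fun x b hb => by
    obtain ⟨c, hc, hcc⟩ := hF.comm_sq hb x
    rw [hcc]; exact hsqU c hc
  have hlm : ∀ x y : X, ∀ b ∈ B, ⁅x * y, b⁆ = ⁅x, b⁆ * ⁅y, b⁆ := fun x y b hb =>
    (h.low_mul (hlow x) (hlow y) b hb).2
  have hsqB : ∀ x : X, x * x ∈ B := fun x => h.low_sq (hlow x)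
  have hcomB : commutator X ≤ B := by
    rw [commutator_def, Subgroup.commutator_le]
    intro a _ c _
    refine h.mem_of_triv fun b hb => ?_
    have hinv : ∀ g : X, ⁅g⁻¹, b⁆ = ⁅g, b⁆ := fun g => by
      have h1 := hlm g g⁻¹ b hb
      rw [mul_inv_cancel, commutatorElement_one_left] at h1
      rw [← inv_eq_of_mul_eq_one_right h1.symm,
        inv_eq_of_mul_eq_one_right (hF.sq_omega _ (hlow g b hb))]
    rw [show ⁅a, c⁆ = a * c * a⁻¹ * c⁻¹ from commutatorElement_def a c, hlm _ _ b hb, hlm _ _ b hb,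
      hlm _ _ b hb, hinv a, hinv c, mul_assoc (⁅a, b⁆), hF.omega_comm (hlow a b hb) ⁅c, b⁆, ← mul_assoc,
      hF.sq_omega _ (hlow a b hb), one_mul, hF.sq_omega _ (hlow c b hb)]
  have hcB : ∀ y z : X, ⁅y, z⁆ ∈ B := fun y z =>
    hcomB (Subgroup.commutator_mem_commutator (Subgroup.mem_top _) (Subgroup.mem_top _))
  have hw : ∀ x : X, x * τ x * τ (τ x) ∈ B := fun x =>
    mem_of_fix_mod hX A hA hXA B hcomB _ (h.fixed_mod (h.norm_fixed (hcB _ _)))
  have hinj : ∀ x, x ∉ B → ∀ b ∈ B, ⁅x, b⁆ = 1 → b * b = 1 := fun x hx b hb hb1 => by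
    rw [← hp]; exact h.inj_of_norm (hlow x) hx (hw x) b hb hb1
  -- pick `a` and `x`
  obtain ⟨a, ha, ha1⟩ := hF.exp_ne_one
  rw [hp] at ha1
  obtain ⟨x, hxB⟩ : ∃ x, x ∉ B := by
    by_contra hall
    push Not at hall
    exact hB (eq_top_iff.2 fun x _ => hall x)
  let f : X →* U :=
    { toFun := fun y => ⟨⁅y, a⁆, hlow y a ha⟩
      map_one' := Subtype.ext (commutatorElement_one_left a)
      map_mul' := fun y z => Subtype.ext (hlm y z a ha) }
  have hker : f.ker = B := by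
    refine le_antisymm (fun y hy => ?_) fun y hy => MonoidHom.mem_ker.2 (Subtype.ext (h.triv hy ha))
    by_contra hyB
    exact ha1 (hinj y hyB a ha (congrArg Subtype.val (MonoidHom.mem_ker.1 hy)))
  have hxτ : x⁻¹ * τ x ∉ B := fun e => hxB (mem_of_fix_mod hX A hA hXA B hcomB x (h.fixed_mod e))
  -- the values at `x` and `τ x` generate `U`
  have hfx : ⁅x, a⁆ ≠ 1 := fun e => ha1 (hinj x hxB a ha e)
  have hτxB : τ x ∉ B := fun e => hxB (by
    have h1 := h.stable _ (inv_mem h.mem) _ e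
    rwa [MulAut.inv_apply_self] at h1)
  have hfτ : ⁅τ x, a⁆ ≠ 1 := fun e => ha1 (hinj _ hτxB a ha e)
  have hfne : ⁅τ x, a⁆ ≠ ⁅x, a⁆ := fun e => hxτ (by
    have : f (x⁻¹ * τ x) = 1 := by
      rw [map_mul, map_inv, inv_mul_eq_one]; exact Subtype.ext e.symm
    rwa [← MonoidHom.mem_ker, hker] at this)
  have hfsurj : Function.Surjective f := by
    obtain ⟨-, -, hprod, hall⟩ := hF.four _ (hlow x a ha) hfx
    intro v
    have hv2 : ∀ w ∈ U, w ≠ 1 → w ≠ ⁅x, a⁆ → w = τ ⁅x, a⁆ ∨ w = τ (τ ⁅x, a⁆) := by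
      intro w hw h1 h2
      rcases hall w hw with e | e | e | e
      · exact absurd e h1
      · exact absurd e h2
      · exact Or.inl e
      · exact Or.inr e
    by_cases h1 : (v : X) = 1
    · exact ⟨1, by rw [map_one]; exact Subtype.ext h1.symm⟩
    by_cases h2 : (v : X) = ⁅x, a⁆
    · exact ⟨x, Subtype.ext h2.symm⟩
    by_cases h3 : (v : X) = ⁅τ x, a⁆
    · exact ⟨τ x, Subtype.ext h3.symm⟩
    refine ⟨x * τ x, Subtype.ext ?_⟩
    show ⁅x * τ x, a⁆ = v
    rw [hlm _ _ a ha]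
    obtain ⟨u, hu⟩ : ∃ u, u = ⁅x, a⁆ := ⟨_, rfl⟩
    have huU : u ∈ U := hu ▸ hlow x a ha
    have huτ := hF.tau_omega huU
    have hprod' : u * τ u = τ (τ u) := by
      rw [← hu] at hprod
      exact (mul_eq_one_iff_eq_inv.1 hprod).trans
        (inv_eq_of_mul_eq_one_right (hF.sq_omega _ (hF.tau_omega huτ)))
    have hprod2 : u * τ (τ u) = τ u := by
      rw [← hprod', ← mul_assoc, hF.sq_omega u huU, one_mul]
    rcases hv2 _ v.2 h1 h2 with e1 | e1 <;>
      rcases hv2 _ (hlow (τ x) a ha) hfτ hfne with e2 | e2 <;> rw [← hu] at e1 e2 ⊢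
    · exact absurd (e1.trans e2.symm) h3
    · rw [e2, hprod2, e1]
    · rw [e2, hprod', e1]
    · exact absurd (e1.trans e2.symm) h3
  -- orders
  have hcardB : Nat.card B = 16 := by
    let g : B →* U :=
      { toFun := fun b => ⟨(b : X) * b, hsqU b b.2⟩
        map_one' := Subtype.ext (mul_one 1)
        map_mul' := fun b c => Subtype.ext ((hF.commute c.2 b.2).mul_mul_mul_comm _ _) }
    have hgs : Function.Surjective g := fun u => by
      obtain ⟨b, hb, hbu⟩ := hF.p_surj u u.2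
      exact ⟨⟨b, hb⟩, Subtype.ext ((hp b).symm.trans hbu)⟩
    have hgk : g.ker = U.subgroupOf B := by
      ext b
      rw [MonoidHom.mem_ker, Subgroup.mem_subgroupOf]
      exact ⟨fun e => hF.mem_omega _ b.2 (congrArg Subtype.val e),
        fun e => Subtype.ext (hF.sq_omega _ e)⟩
    have e := Subgroup.card_mul_index g.ker
    rw [Subgroup.index_ker, MonoidHom.range_eq_top.2 hgs, Subgroup.card_top, hgk,
      Nat.card_congr (Subgroup.subgroupOfEquivOfLe hF.le).toEquiv, hF.card_omega] at e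
    exact e.symm
  have hindex : B.index = 4 := by
    rw [← hker, Subgroup.index_ker, MonoidHom.range_eq_top.2 hfsurj, Subgroup.card_top, hF.card_omega]
  have hcard : Nat.card X = 64 := by
    rw [← Subgroup.card_mul_index B, hcardB, hindex]
  -- centre
  have hZ : Subgroup.center X = U := by
    refine le_antisymm (fun z hz => ?_) hF.central
    have hzB : z ∈ B := h.mem_of_triv fun b _ => commutatorElement_eq_one_iff_mul_comm.2
      (Subgroup.mem_center_iff.1 hz b).symm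
    exact hF.mem_omega z hzB (hinj x hxB z hzB
      (commutatorElement_eq_one_iff_mul_comm.2 (Subgroup.mem_center_iff.1 hz x)))
  -- commutators
  have hpconj : ∀ (b : X), b ∈ B → ∀ g : X, (g * b * g⁻¹) * (g * b * g⁻¹) = b * b := fun b hb g => by
    rw [show (g * b * g⁻¹) * (g * b * g⁻¹) = g * (b * b) * g⁻¹ by group, hF.omega_comm (hsqU b hb) g,
      mul_inv_cancel_right]
  let κ : X → X → X := fun y z => ⁅y, z⁆ * ⁅y, z⁆
  have hκr : ∀ y z z' : X, κ y (z * z') = κ y z * κ y z' := by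
    intro y z z'
    have e : ⁅y, z * z'⁆ = ⁅y, z⁆ * (z * ⁅y, z'⁆ * z⁻¹) := by simp only [commutatorElement_def]; group
    show ⁅y, z * z'⁆ * ⁅y, z * z'⁆ = _
    rw [e, (hF.commute (hF.conj_mem (hcB y z') z) (hcB y z)).mul_mul_mul_comm, hpconj _ (hcB y z') z]
  have hκsym : ∀ y z : X, κ z y = κ y z := fun y z => by
    show ⁅z, y⁆ * ⁅z, y⁆ = _
    rw [← commutatorElement_inv y z, ← mul_inv_rev,
      inv_eq_of_mul_eq_one_right (hF.sq_omega _ (hsqU _ (hcB y z)))]
  have hκB : ∀ y : X, ∀ b ∈ B, κ y b = 1 := fun y b hb => hF.sq_omega _ (hlow y b hb)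
  have hκinv : ∀ y z : X, κ y z⁻¹ = κ y z := fun y z => by
    have h1 := hκr y z z⁻¹
    rw [mul_inv_cancel, hκB y 1 (one_mem _)] at h1
    rw [← inv_eq_of_mul_eq_one_right h1.symm,
      inv_eq_of_mul_eq_one_right (hF.sq_omega _ (hsqU _ (hcB y z)))]
  have hκτ : κ x (τ x) = 1 := by
    refine hF.eq_one_of_fixed (hsqU _ (hcB _ _)) ?_
    show τ (⁅x, τ x⁆ * ⁅x, τ x⁆) = _
    rw [map_mul, map_commutatorElement]
    show κ (τ x) (τ (τ x)) = κ x (τ x)
    have e : τ (τ x) = (τ x)⁻¹ * x⁻¹ * (x * τ x * τ (τ x)) := by group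
    rw [e, hκr, hκr, hκinv, hκinv, hκB _ _ (hw x)]
    have : κ (τ x) (τ x) = 1 := by
      show ⁅τ x, τ x⁆ * _ = 1
      rw [commutatorElement_self, mul_one]
    rw [this, one_mul, mul_one, hκsym]
  have hcover : ∀ y : X, ∃ w ∈ ({1, x, τ x, x * τ x} : Set X), w⁻¹ * y ∈ B := by
    intro y
    obtain ⟨w, hw', hwy⟩ : ∃ w ∈ ({1, x, τ x, x * τ x} : Set X), f w = f y := by
      haveI : Fintype U := Fintype.ofFinite _
      have hs : ({f 1, f x, f (τ x), f (x * τ x)} : Finset U) = Finset.univ := by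
        apply Finset.eq_univ_of_card
        rw [← Nat.card_eq_fintype_card, hF.card_omega]
        have hx1 : f x ≠ 1 := fun e => hfx (congrArg Subtype.val e)
        have hτ1 : f (τ x) ≠ 1 := fun e => hfτ (congrArg Subtype.val e)
        have hne : f (τ x) ≠ f x := fun e => hfne (congrArg Subtype.val e)
        have hsq : f x * f x = 1 := Subtype.ext (hF.sq_omega _ (hlow x a ha))
        have h31 : f x * f (τ x) ≠ 1 := fun e => hne (mul_left_cancel (e.trans hsq.symm))
        have h3x : f x * f (τ x) ≠ f x := fun e => hτ1 (mul_eq_left.1 e)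
        have h3τ : f x * f (τ x) ≠ f (τ x) := fun e => hx1 (mul_eq_right.1 e)
        simp [map_mul, map_one, hx1.symm, hτ1.symm, hne.symm, h31.symm, h3x.symm, h3τ.symm]
      have := Finset.mem_univ (f y)
      rw [← hs] at this
      simp only [Finset.mem_insert, Finset.mem_singleton] at this
      rcases this with e | e | e | e
      · exact ⟨1, by simp, e.symm⟩
      · exact ⟨x, by simp, e.symm⟩
      · exact ⟨τ x, by simp, e.symm⟩
      · exact ⟨x * τ x, by simp, e.symm⟩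
    refine ⟨w, hw', ?_⟩
    rw [← hker, MonoidHom.mem_ker, map_mul, map_inv, hwy, inv_mul_cancel]
  have hκone : ∀ y : X, κ y x = 1 → κ y (τ x) = 1 → ∀ z : X, κ y z = 1 := by
    intro y h1 h2 z
    obtain ⟨w, hw', hwB⟩ := hcover z
    have e : z = w * (w⁻¹ * z) := by group
    rw [e, hκr, hκB y _ hwB, mul_one]
    simp only [Set.mem_insert_iff, Set.mem_singleton_iff] at hw'
    rcases hw' with rfl | rfl | rfl | rfl
    · exact hκB y 1 (one_mem _)
    · exact h1
    · exact h2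
    · rw [hκr, h1, h2, one_mul]
  have hκself : ∀ y : X, κ y y = 1 := fun y => by
    show ⁅y, y⁆ * _ = 1
    rw [commutatorElement_self, mul_one]
  have hU : ∀ y z : X, ⁅y, z⁆ ∈ U := by
    intro y z
    refine hF.mem_omega _ (hcB y z) (hκone y ?_ ?_ z)
    · rw [hκsym]; exact hκone x (hκself x) hκτ y
    · rw [hκsym]; exact hκone (τ x) ((hκsym x (τ x)).trans hκτ) (hκself _) y
  refine ⟨hcard, hZ, hU, fun y => ?_, fun t ht => ?_⟩
  · rw [← hZ]
    refine Subgroup.mem_center_iff.2 fun z => ?_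
    rw [← commutatorElement_eq_one_iff_mul_comm]
    have e : ⁅z, y * y⁆ = ⁅z, y⁆ * (y * ⁅z, y⁆ * y⁻¹) := by simp only [commutatorElement_def]; group
    rw [e, hF.omega_comm (hU z y) y, mul_inv_cancel_right, hF.sq_omega _ (hU z y)]
  · refine mem_of_conj hno U hF.central hF.sq_omega hF.card_omega ht fun y => ?_
    have e : t⁻¹ * (y * t * y⁻¹) = ⁅t⁻¹, y⁆ := by simp only [commutatorElement_def]; group
    rw [e]; exact hU _ _

end SCFrame

end Cfsg.Agent.OddPre.NoSCN
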