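import Mathlib.GroupTheory.GroupAction.Quotient
import Mathlib.Algebra.Ring.Parity
import Mathlib.Tactic

/-!
An odd group on eight points fixing exactly one is transitive on the other seven.
-/

set_option autoImplicit false

namespace Cfsg.Agent.OddPre.NoSCN

open MulAction

theorem transitive_seven {A Q : Type*} [Group A] [Finite A] (hA : Odd (Nat.card A)) [MulAction A Q]
    [Finite Q] (hQ : Nat.card Q = 8) (e : Q) (he : ∀ a : A, a • e = e)
    (hfix : ∀ v : Q, (∀ a : A, a • v = v) → v = e) :
    ∀ v w : Q, v ≠ e → w ≠ e → ∃ a : A, a • v = w := by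
  classical
  haveI : Fintype Q := Fintype.ofFinite _
  have hcard : ∀ v : Q, v ≠ e → 3 ≤ (orbit A v).ncard ∧ Odd (orbit A v).ncard := by
    intro v hv
    have hdvd : (orbit A v).ncard ∣ Nat.card A := by
      rw [← Nat.card_coe_set_eq, Nat.card_congr (orbitEquivQuotientStabilizer A v)]
      exact Subgroup.card_quotient_dvd_card _
    have hodd := Odd.of_dvd_nat hA hdvd
    refine ⟨?_, hodd⟩
    have h1 : (orbit A v).ncard ≠ 1 := fun h => hv (hfix v fun a => by
      obtain ⟨u, hu⟩ := Set.ncard_eq_one.1 h
      have h1 := mem_orbit v a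
      have h2 := mem_orbit_self (M := A) v
      rw [hu, Set.mem_singleton_iff] at h1 h2
      exact h1.trans h2.symm)
    obtain ⟨k, hk⟩ := hodd
    omega
  have hne : ∀ v : Q, v ≠ e → e ∉ orbit A v := by
    rintro v hv ⟨a, ha⟩
    exact hv (smul_left_cancel a (ha.trans (he a).symm))
  intro v w hv hw
  by_contra hvw
  push Not at hvw
  have hd : Disjoint (orbit A v) (orbit A w) := by
    rw [Set.disjoint_left]
    intro u h1 h2
    obtain ⟨a, ha⟩ : w ∈ orbit A v := by
      rw [← orbit_eq_iff.2 h1, orbit_eq_iff.2 h2]; exact mem_orbit_self w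
    exact hvw a ha
  let T : Set Q := orbit A v ∪ orbit A w ∪ {e}
  have hT : T.ncard = (orbit A v).ncard + (orbit A w).ncard + 1 := by
    rw [Set.ncard_union_eq (by
        rw [Set.disjoint_singleton_right, Set.mem_union]
        rintro (h | h)
        · exact hne v hv h
        · exact hne w hw h), Set.ncard_union_eq hd, Set.ncard_singleton]
  have hTle : T.ncard ≤ 8 := by
    rw [← hQ, ← Set.ncard_univ]; exact Set.ncard_le_ncard (Set.subset_univ _)
  obtain ⟨h3v, kv, hkv⟩ := hcard v hv
  obtain ⟨h3w, kw, hkw⟩ := hcard w hw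
  have hcompl : (Tᶜ).ncard = 1 := by
    rw [Set.ncard_compl, hQ]; omega
  obtain ⟨u, hu⟩ := Set.ncard_eq_one.1 hcompl
  have huT : u ∉ T := by
    have : u ∈ Tᶜ := by rw [hu]; exact Set.mem_singleton u
    exact this
  have hue : u = e := by
    refine hfix u fun a => ?_
    have : a • u ∈ Tᶜ := by
      intro hmem
      apply huT
      rcases hmem with (h | h) | h
      · exact Or.inl (Or.inl (by
          have := MulAction.mem_orbit_of_mem_orbit a⁻¹ h
          rwa [inv_smul_smul] at this))
      · exact Or.inl (Or.inr (by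
          have := MulAction.mem_orbit_of_mem_orbit a⁻¹ h
          rwa [inv_smul_smul] at this))
      · exact Or.inr (smul_left_cancel a (h.trans (he a).symm))
    rw [hu] at this
    exact this
  exact huT (Or.inr hue)

end Cfsg.Agent.OddPre.NoSCN
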