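import Cfsg.Agent.OddPre.NoSCN.Displacement

/-!
A self-centralising frame has exponent 4.
-/

set_option autoImplicit false

namespace Cfsg.Agent.OddPre.NoSCN

open scoped commutatorElement

variable {X : Type*} [Group X] [Finite X] {B U : Subgroup X} {τ : MulAut X} {n : ℕ}
  {A : Subgroup (MulAut X)}

namespace SCFrame

variable (h : SCFrame A B U τ n)
include h

omit [Finite X] in
theorem comm_comm_pow {x y b : X} (hb : b ∈ B) (k : ℕ) (hk : k + 1 = n) :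
    ⁅x, ⁅y, b⁆⁆ ^ 2 ^ (k - 1) = 1 := by
  have hn := h.frame.two_le
  obtain ⟨c, hc, hcc⟩ := h.frame.comm_sq hb y
  rw [hcc, h.frame.comm_mul hc hc, ← pow_two, ← pow_mul, ← pow_succ', show k - 1 + 1 = n - 1 by omega]
  exact h.frame.p_comm hc x

omit [Finite X] in
/-- The subgroup of elements displacing `B` into `U`. -/
theorem low_mul {x y : X} (hx : ∀ b ∈ B, ⁅x, b⁆ ∈ U) (hy : ∀ b ∈ B, ⁅y, b⁆ ∈ U) :
    ∀ b ∈ B, ⁅x * y, b⁆ ∈ U ∧ ⁅x * y, b⁆ = ⁅x, b⁆ * ⁅y, b⁆ := by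
  intro b hb
  have e : ⁅x * y, b⁆ = ⁅x, b⁆ * ⁅y, b⁆ := by
    rw [h.frame.comm_left hb, h.frame.comm_omega (hy b hb), one_mul,
      h.frame.omega_comm (hx b hb)]
  exact ⟨e ▸ mul_mem (hx b hb) (hy b hb), e⟩

omit [Finite X] in
theorem low_inv {x : X} (hx : ∀ b ∈ B, ⁅x, b⁆ ∈ U) : ∀ b ∈ B, ⁅x⁻¹, b⁆ ∈ U := by
  intro b hb
  have e : ⁅x⁻¹, b⁆ = x⁻¹ * ⁅x, b⁆⁻¹ * (x⁻¹)⁻¹ := by simp only [commutatorElement_def]; group
  rw [e, h.frame.omega_comm (inv_mem (hx b hb)), mul_inv_cancel_right]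
  exact inv_mem (hx b hb)

omit [Finite X] in
theorem low_sq {x : X} (hx : ∀ b ∈ B, ⁅x, b⁆ ∈ U) : x * x ∈ B :=
  h.mem_of_triv fun b hb => by
    rw [(h.low_mul hx hx b hb).2]; exact h.frame.sq_omega _ (hx b hb)

omit [Finite X] in
/-- The first-level displacement `b ↦ [x, b] ^ 2 ^ (n - 2)` is a homomorphism in `x`. -/
theorem eta_mul {x y b : X} (hb : b ∈ B) :
    ⁅x * y, b⁆ ^ 2 ^ (n - 2) = ⁅x, b⁆ ^ 2 ^ (n - 2) * ⁅y, b⁆ ^ 2 ^ (n - 2) := by
  have hn := h.frame.two_le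
  have h1 := h.comm_comm_pow (x := x) (y := y) hb (n - 1) (by omega)
  rw [show n - 1 - 1 = n - 2 by omega] at h1
  have hy : ⁅y, b⁆ ∈ B := h.frame.comm_mem hb y
  have hx : ⁅x, b⁆ ∈ B := h.frame.comm_mem hb x
  rw [h.frame.comm_left hb, (h.frame.commute (mul_mem (h.frame.comm_mem hy x) hy) hx).mul_pow,
    (h.frame.commute (h.frame.comm_mem hy x) hy).mul_pow, h1, one_mul,
    ((h.frame.commute hy hx).pow_pow _ _).eq]

omit [Finite X] in
theorem eta_mem {x b : X} (hb : b ∈ B) : ⁅x, b⁆ ^ 2 ^ (n - 2) ∈ U := by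
  have hn := h.frame.two_le
  obtain ⟨c, hc, hcc⟩ := h.frame.comm_sq hb x
  rw [hcc, ← pow_two, ← pow_mul, ← pow_succ', show n - 2 + 1 = n - 1 by omega]
  exact h.frame.p_mem hc

omit [Finite X] in
/-- An element with square in `B` and trivial first-level displacement displaces `B` into `U`. -/
theorem low_of_eta {x : X} (hx2 : x * x ∈ B) (hη : ∀ b ∈ B, ⁅x, b⁆ ^ 2 ^ (n - 2) = 1) :
    ∀ b ∈ B, ⁅x, b⁆ ∈ U := by
  have hn := h.frame.two_le
  have h4 : ∀ b ∈ B, ∃ e ∈ B, ⁅x, b⁆ = (e * e) * (e * e) := by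
    intro b hb
    obtain ⟨c, hc, hcc⟩ := h.frame.comm_sq hb x
    have : c ^ 2 ^ (n - 1) = 1 := by
      rw [show n - 1 = (n - 2) + 1 by omega, pow_succ', pow_mul, pow_two, ← hcc]
      exact hη b hb
    obtain ⟨e, he, hee⟩ := h.frame.sq_of_p_eq_one hc this
    exact ⟨e, he, hee ▸ hcc⟩
  have key : ∀ d, ∀ k, k + d = n → 1 ≤ k → ∀ b ∈ B, ⁅x, b⁆ ^ 2 ^ k = 1 := by
    intro d
    induction d with
    | zero =>
      intro k hk _ b hb
      rw [← Nat.add_zero k, hk]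
      exact h.frame.exp_eq_one _ (h.frame.comm_mem hb x)
    | succ d ih =>
      intro k hk hk1 b hb
      have ih' := ih (k + 1) (by omega) (by omega)
      obtain ⟨e, he, hee⟩ := h4 b hb
      have h0 : ⁅x * x, b⁆ = 1 := h.triv hx2 hb
      rw [h.frame.comm_left hb] at h0
      have hδe : ⁅x, ⁅x, b⁆⁆ = ⁅x, e⁆ ^ 4 := by
        rw [hee, show (e * e) * (e * e) = e ^ 4 by simp [pow_succ, mul_assoc], h.frame.comm_pow he]
      rw [hδe] at h0
      have hb' := h.frame.comm_mem hb x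
      have he' := pow_mem (h.frame.comm_mem he x) 4
      have h1 := congrArg (fun g => g ^ 2 ^ (k - 1)) h0
      simp only [one_pow] at h1
      rw [(h.frame.commute (mul_mem he' hb') hb').mul_pow, (h.frame.commute he' hb').mul_pow,
        ← pow_mul, show 4 * 2 ^ (k - 1) = 2 ^ (k + 1) by
          rw [show k + 1 = (k - 1) + 2 by omega, pow_add, mul_comm]; norm_num, ih' e he, one_mul,
        ← pow_add, ← two_mul, ← pow_succ', show k - 1 + 1 = k by omega] at h1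
      exact h1
  intro b hb
  refine h.frame.mem_omega _ (h.frame.comm_mem hb x) ?_
  rw [← pow_two]
  exact key (n - 1) 1 (by omega) le_rfl b hb

omit [Finite X] in
theorem eta_of_sq_eq {x a b : X} (ha : a ∈ B) (hb : b ∈ B) (he : a ^ 2 ^ (n - 1) = b ^ 2 ^ (n - 1)) :
    ⁅x, a⁆ ^ 2 ^ (n - 2) = ⁅x, b⁆ ^ 2 ^ (n - 2) := by
  have hn := h.frame.two_le
  obtain ⟨c, hc, hcc⟩ := h.frame.sq_of_p_eq_one (mul_mem (inv_mem ha) hb)
    (by rw [h.frame.p_mul (inv_mem ha) hb, inv_pow, he, inv_mul_cancel])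
  have : b = a * (c * c) := by rw [← hcc, mul_inv_cancel_left]
  rw [this, h.frame.comm_mul ha (mul_mem hc hc), h.frame.comm_mul hc hc,
    (h.frame.commute (h.frame.comm_mem ha x) (mul_mem (h.frame.comm_mem hc x) (h.frame.comm_mem hc x))).mul_pow,
    ← pow_two ⁅x, c⁆, ← pow_mul, ← pow_succ', show n - 2 + 1 = n - 1 by omega,
    h.frame.p_comm hc x, mul_one]

/-- Some element outside `B` displaces `B` into `U`, if `n ≥ 3`. -/
theorem exists_low (hX : IsPGroup 2 X) (hA : Odd (Nat.card A))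
    (hXA : Subgroup.closure {g : X | ∃ φ ∈ A, ∃ x : X, g = x⁻¹ * φ x} = ⊤) (hB : B ≠ ⊤)
    (hn3 : 3 ≤ n) : ∃ x, x ∉ B ∧ ∀ b ∈ B, ⁅x, b⁆ ∈ U := by
  classical
  by_contra hcon
  push Not at hcon
  have hF := h.frame
  -- trivial first-level displacement means membership in `B`
  have hη0 : ∀ x, (∀ b ∈ B, ⁅x, b⁆ ^ 2 ^ (n - 2) = 1) → x ∈ B := by
    intro x hx
    obtain ⟨k, hk⟩ := hX x
    suffices ∀ k, ∀ x, x ^ 2 ^ k ∈ B → (∀ b ∈ B, ⁅x, b⁆ ^ 2 ^ (n - 2) = 1) → x ∈ B from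
      this k x (hk ▸ one_mem B) hx
    intro k
    induction k with
    | zero => intro x hx _; simpa using hx
    | succ k ih =>
      intro x hx hxη
      have hxx : x * x ∈ B := ih (x * x) (by rw [← pow_two, ← pow_mul, ← pow_succ']; exact hx)
        fun b hb => by rw [h.eta_mul hb, hxη b hb, one_mul]
      by_contra hxB
      obtain ⟨b, hb, hbU⟩ := hcon x hxB
      exact hbU (h.low_of_eta hxx hxη b hb)
  have hη1 : ∀ b ∈ B, ⁅(1 : X), b⁆ ^ 2 ^ (n - 2) = 1 := fun b _ => by simp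
  have hηi : ∀ (x : X), ∀ b ∈ B, ⁅x⁻¹, b⁆ ^ 2 ^ (n - 2) = ⁅x, b⁆ ^ 2 ^ (n - 2) := by
    intro x b hb
    have h1 := h.eta_mul (x := x) (y := x⁻¹) hb
    rw [mul_inv_cancel, hη1 b hb] at h1
    rw [← inv_eq_of_mul_eq_one_right h1.symm, inv_eq_of_mul_eq_one_right (hF.sq_omega _ (h.eta_mem hb))]
  haveI := hF.normal
  have hcomB : commutator X ≤ B := by
    rw [commutator_def, Subgroup.commutator_le]
    intro a _ c _
    refine hη0 _ fun b hb => ?_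
    rw [show ⁅a, c⁆ = a * c * a⁻¹ * c⁻¹ from commutatorElement_def a c, h.eta_mul hb, h.eta_mul hb,
      h.eta_mul hb, hηi a b hb, hηi c b hb]
    have ha := h.eta_mem (x := a) hb
    have hc := h.eta_mem (x := c) hb
    rw [mul_assoc (⁅a, b⁆ ^ 2 ^ (n - 2)), hF.omega_comm ha (⁅c, b⁆ ^ 2 ^ (n - 2)), ← mul_assoc,
      hF.sq_omega _ ha, one_mul, hF.sq_omega _ hc]
  obtain ⟨x, hxB⟩ : ∃ x, x ∉ B := by
    by_contra hall
    push Not at hall
    exact hB (eq_top_iff.2 fun x _ => hall x)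
  have hw : x * τ x * τ (τ x) ∈ B := mem_of_fix_mod hX A hA hXA B hcomB _
    (h.fixed_mod (h.norm_fixed (hcomB (Subgroup.commutator_mem_commutator (Subgroup.mem_top _)
      (Subgroup.mem_top _)))))
  -- the induced map on `U`
  choose! pre hpre hpre' using hF.p_surj
  let ψ : X → X := fun u => ⁅x, pre u⁆ ^ 2 ^ (n - 2)
  have hψU : ∀ u ∈ U, ψ u ∈ U := fun u hu => h.eta_mem (hpre u hu)
  have hψm : ∀ u ∈ U, ∀ v ∈ U, ψ (u * v) = ψ u * ψ v := by
    intro u hu v hv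
    show ⁅x, pre (u * v)⁆ ^ _ = _
    rw [h.eta_of_sq_eq (hpre _ (mul_mem hu hv)) (mul_mem (hpre u hu) (hpre v hv))
      (by rw [hpre' _ (mul_mem hu hv), hF.p_mul (hpre u hu) (hpre v hv), hpre' u hu, hpre' v hv]),
      hF.comm_mul (hpre u hu) (hpre v hv),
      (hF.commute (hF.comm_mem (hpre u hu) x) (hF.comm_mem (hpre v hv) x)).mul_pow]
  have hψτ : ∀ (y : X), ∀ v ∈ U, τ (⁅y, pre v⁆ ^ 2 ^ (n - 2)) = ⁅τ y, pre (τ v)⁆ ^ 2 ^ (n - 2) := by
    intro y v hv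
    rw [map_pow, ← hF.comm_tau]
    exact h.eta_of_sq_eq (hF.mapsTo _ (hpre v hv)) (hpre _ (hF.tau_omega hv))
      (by rw [← map_pow, hpre' v hv, hpre' _ (hF.tau_omega hv)])
  have hsum : ∀ u ∈ U, ψ u * τ (ψ (τ (τ u))) * τ (τ (ψ (τ u))) = 1 := by
    intro u hu
    have hu1 := hF.tau_omega hu
    have hu2 := hF.tau_omega hu1
    simp only [ψ]
    rw [hψτ x _ hu2, hψτ x _ hu1, hψτ (τ x) _ hu2, hF.cube u (hF.le hu),
      ← h.eta_mul (hpre u hu), ← h.eta_mul (hpre u hu), h.triv hw (hpre u hu), one_pow]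
  have hψ0 : (∀ u ∈ U, ψ u = 1) → False := fun h0 => hxB (hη0 x fun b hb => by
    rw [h.eta_of_sq_eq hb (hpre _ (hF.p_mem hb)) (hpre' _ (hF.p_mem hb)).symm]
    exact h0 _ (hF.p_mem hb))
  have hinj := (hF.trivial_or_injective ψ hψU hψm hsum).resolve_left hψ0
  -- it is idempotent
  have hxx : x * x ∈ B := hη0 _ fun b hb => by
    rw [h.eta_mul hb]; exact hF.sq_omega _ (h.eta_mem hb)
  have hidem : ∀ u ∈ U, ψ (ψ u) = ψ u := by
    intro u hu
    have hb := hpre u hu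
    obtain ⟨c, hc, hcc⟩ := hF.comm_sq hb x
    have hpc : c ^ 2 ^ (n - 1) = ψ u := by
      show _ = ⁅x, pre u⁆ ^ _
      rw [hcc, show n - 1 = n - 2 + 1 by omega, pow_succ', pow_mul, pow_two]
    have h0 : ⁅x * x, pre u⁆ = 1 := h.triv hxx hb
    rw [hF.comm_left hb, hcc, hF.comm_mul hc hc] at h0
    have hδ := hF.comm_mem hc x
    have h1 : (⁅x, c⁆ * (c * c)) * (⁅x, c⁆ * (c * c)) = (⁅x, c⁆ * ⁅x, c⁆) * (c * c) * (c * c) := by
      rw [(hF.commute (mul_mem hc hc) hδ).mul_mul_mul_comm, mul_assoc (⁅x, c⁆ * ⁅x, c⁆)]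
    have h2 : ⁅x, c⁆ * (c * c) ∈ U :=
      hF.mem_omega _ (mul_mem hδ (mul_mem hc hc)) (h1.trans h0)
    have h3 : (⁅x, c⁆ * ⁅x, pre u⁆) ^ 2 ^ (n - 2) = 1 := by
      rw [hcc, show n - 2 = (n - 3) + 1 by omega, pow_succ', pow_mul, pow_two, hF.sq_omega _ h2,
        one_pow]
    rw [(hF.commute hδ (hF.comm_mem hb x)).mul_pow] at h3
    show ⁅x, pre (ψ u)⁆ ^ 2 ^ (n - 2) = _
    rw [h.eta_of_sq_eq (hpre _ (hψU u hu)) hc (by rw [hpre' _ (hψU u hu), hpc])]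
    exact (eq_inv_of_mul_eq_one_left h3).trans
      (inv_eq_of_mul_eq_one_right (hF.sq_omega _ (h.eta_mem hb)))
  have hid : ∀ u ∈ U, ψ u = u := by
    intro u hu
    have h1 : ψ (ψ u * u) = 1 := by
      rw [hψm _ (hψU u hu) u hu, hidem u hu]; exact hF.sq_omega _ (hψU u hu)
    have := hinj _ (mul_mem (hψU u hu) hu) h1
    exact (eq_inv_of_mul_eq_one_left this).trans (inv_eq_of_mul_eq_one_right (hF.sq_omega u hu))
  obtain ⟨u, hu, hu1⟩ : ∃ u ∈ U, u ≠ 1 := by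
    by_contra hall
    push Not at hall
    have := (Subgroup.eq_bot_iff_forall U).2 hall
    have h4 := hF.card_omega
    rw [this, Subgroup.card_bot] at h4
    omega
  have hu1' := hF.tau_omega hu
  have hu2' := hF.tau_omega hu1'
  have := hsum u hu
  rw [hid u hu, hid _ hu2', hid _ hu1', hF.cube u (hF.le hu), hF.sq_omega u hu, one_mul] at this
  exact hu1 this

end SCFrame

end Cfsg.Agent.OddPre.NoSCN
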